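import Mathlib

set_option autoImplicit false

/-! A biadditive form between two elementary abelian 2-groups of the same order, equivariant for a
commutative group regular on the non-identity elements of each, has no non-trivial zeros unless it
vanishes. The proof is a double count. -/

namespace Cfsg.Agent.Lib.SuzukiTwo.BiCount

/-- an action by group automorphisms, as a function -/
structure IsAct {K V : Type*} [Group K] [Group V] (a : K → V → V) : Prop where
  one : ∀ v, a 1 v = v
  mul : ∀ k l v, a (k * l) v = a k (a l v)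
  hom : ∀ k u v, a k (u * v) = a k u * a k v

namespace IsAct

variable {K V : Type*} [Group K] [Group V] {a : K → V → V}

theorem map_one (h : IsAct a) (k : K) : a k 1 = 1 := by
  have := h.hom k 1 1
  rw [mul_one] at this
  exact left_eq_mul.mp this

theorem inv_act (h : IsAct a) (k : K) (v : V) : a k⁻¹ (a k v) = v := by
  rw [← h.mul, inv_mul_cancel, h.one]

theorem act_inv (h : IsAct a) (k : K) (v : V) : a k (a k⁻¹ v) = v := by
  rw [← h.mul, mul_inv_cancel, h.one]

theorem ne_one (h : IsAct a) {k : K} {v : V} (hv : v ≠ 1) : a k v ≠ 1 := by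
  intro e
  apply hv
  have := h.inv_act k v
  rw [e, h.map_one] at this
  exact this.symm

/-- the action of `k` as a permutation -/
def equiv (h : IsAct a) (k : K) : V ≃ V where
  toFun := a k
  invFun := a k⁻¹
  left_inv := h.inv_act k
  right_inv := h.act_inv k

end IsAct

theorem bi_inj {V W K : Type*} [CommGroup V] [CommGroup W] [CommGroup K] [Finite V] [Finite W]
    (hV : ∀ v : V, v * v = 1) (hW : ∀ w : W, w * w = 1)
    {a : K → V → V} {b : K → W → W} (ha : IsAct a) (hb : IsAct b)
    (a_reg : ∀ x y : V, x ≠ 1 → y ≠ 1 → ∃ k, a k x = y)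
    (b_reg : ∀ x y : W, x ≠ 1 → y ≠ 1 → ∃ k, b k x = y)
    (hcard : Nat.card V = Nat.card W)
    (G : V → W → W)
    (G_l : ∀ u u' w, G (u * u') w = G u w * G u' w)
    (G_r : ∀ u w w', G u (w * w') = G u w * G u w')
    (equi : ∀ k u w, G (a k u) (b k w) = b k (G u w))
    (hne : ∃ u w, G u w ≠ 1) :
    ∀ u w, G u w = 1 → u = 1 ∨ w = 1 := by
  classical
  haveI := Fintype.ofFinite V
  haveI := Fintype.ofFinite W
  have G_1r : ∀ u, G u 1 = 1 := by
    intro u
    have := G_r u 1 1
    rw [mul_one] at this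
    exact left_eq_mul.mp this
  have G_1l : ∀ w, G 1 w = 1 := by
    intro w
    have := G_l 1 1 w
    rw [mul_one] at this
    exact left_eq_mul.mp this
  obtain ⟨u₀, w₀, hG⟩ := hne
  have hu₀ : u₀ ≠ 1 := by
    rintro rfl
    exact hG (G_1l _)
  have hw₀ : w₀ ≠ 1 := by
    rintro rfl
    exact hG (G_1r _)
  obtain ⟨l, hl⟩ := b_reg w₀ _ hw₀ hG
  let rel : V → W → Prop := fun u w => G u w = b l w
  let s : Finset V := Finset.univ.filter (· ≠ 1)
  let t : Finset W := Finset.univ.filter (· ≠ 1)
  have dc := Finset.sum_card_bipartiteAbove_eq_sum_card_bipartiteBelow (s := s) (t := t) rel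
  have h1 : ∀ u ∈ s, (t.bipartiteAbove rel u).card = (t.bipartiteAbove rel u₀).card := by
    intro u hu
    have hu' : u ≠ 1 := (Finset.mem_filter.mp hu).2
    obtain ⟨k, rfl⟩ := a_reg u₀ u hu₀ hu'
    symm
    apply Finset.card_equiv (hb.equiv k)
    intro w
    simp only [Finset.mem_bipartiteAbove, t, Finset.mem_filter, Finset.mem_univ, true_and, rel]
    show _ ↔ b k w ≠ 1 ∧ G (a k u₀) (b k w) = b l (b k w)
    rw [equi]
    constructor
    · rintro ⟨h2, h3⟩
      refine ⟨hb.ne_one h2, ?_⟩
      rw [h3, ← hb.mul, ← hb.mul, mul_comm]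
    · rintro ⟨h2, h3⟩
      refine ⟨fun e => h2 (by rw [e, hb.map_one]), ?_⟩
      rw [← hb.mul, mul_comm, hb.mul] at h3
      have := congrArg (b k⁻¹) h3
      rwa [hb.inv_act, hb.inv_act] at this
  have h2 : ∀ w ∈ t, (s.bipartiteBelow rel w).card = (s.bipartiteBelow rel w₀).card := by
    intro w hw
    have hw' : w ≠ 1 := (Finset.mem_filter.mp hw).2
    obtain ⟨k, rfl⟩ := b_reg w₀ w hw₀ hw'
    symm
    apply Finset.card_equiv (ha.equiv k)
    intro u
    simp only [Finset.mem_bipartiteBelow, s, Finset.mem_filter, Finset.mem_univ, true_and, rel]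
    show _ ↔ a k u ≠ 1 ∧ G (a k u) (b k w₀) = b l (b k w₀)
    rw [equi]
    constructor
    · rintro ⟨h2, h3⟩
      refine ⟨ha.ne_one h2, ?_⟩
      rw [h3, ← hb.mul, ← hb.mul, mul_comm]
    · rintro ⟨h2, h3⟩
      refine ⟨fun e => h2 (by rw [e, ha.map_one]), ?_⟩
      rw [← hb.mul, mul_comm, hb.mul] at h3
      have := congrArg (b k⁻¹) h3
      rwa [hb.inv_act, hb.inv_act] at this
  rw [Finset.sum_congr rfl h1, Finset.sum_congr rfl h2, Finset.sum_const, Finset.sum_const,
    smul_eq_mul, smul_eq_mul] at dc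
  have hst : s.card = t.card := by
    have e1 : s.card + 1 = Nat.card V := by
      rw [Nat.card_eq_fintype_card, ← Finset.card_univ]
      have e0 : s = Finset.univ.erase 1 := Finset.filter_ne' _ _
      rw [e0, Finset.card_erase_of_mem (Finset.mem_univ _)]
      have : 0 < (Finset.univ : Finset V).card := Finset.card_pos.mpr ⟨1, Finset.mem_univ _⟩
      omega
    have e2 : t.card + 1 = Nat.card W := by
      rw [Nat.card_eq_fintype_card, ← Finset.card_univ]
      have e0 : t = Finset.univ.erase 1 := Finset.filter_ne' _ _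
      rw [e0, Finset.card_erase_of_mem (Finset.mem_univ _)]
      have : 0 < (Finset.univ : Finset W).card := Finset.card_pos.mpr ⟨1, Finset.mem_univ _⟩
      omega
    omega
  have hs_pos : 0 < s.card := Finset.card_pos.mpr ⟨u₀, Finset.mem_filter.mpr ⟨Finset.mem_univ _, hu₀⟩⟩
  rw [hst] at dc
  have hrt : (t.bipartiteAbove rel u₀).card = (s.bipartiteBelow rel w₀).card :=
    Nat.eq_of_mul_eq_mul_left (by rwa [← hst]) dc
  -- the two subgroups
  have hpV : IsPGroup 2 V := fun v => ⟨1, by rw [pow_one, pow_two, hV]⟩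
  have hpW : IsPGroup 2 W := fun v => ⟨1, by rw [pow_one, pow_two, hW]⟩
  let A : Subgroup V :=
    { carrier := {u | G u w₀ = 1}
      one_mem' := G_1l _
      mul_mem' := by
        intro x y hx hy
        show G (x * y) w₀ = 1
        rw [G_l, show G x w₀ = 1 from hx, show G y w₀ = 1 from hy, one_mul]
      inv_mem' := by
        intro x hx
        have : x⁻¹ = x := inv_eq_of_mul_eq_one_left (hV x)
        rw [this]
        exact hx }
  let E : Subgroup W :=
    { carrier := {w | G u₀ w = b l w}
      one_mem' := by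
        show G u₀ 1 = b l 1
        rw [G_1r, hb.map_one]
      mul_mem' := by
        intro x y hx hy
        show G u₀ (x * y) = b l (x * y)
        rw [G_r, show G u₀ x = b l x from hx, show G u₀ y = b l y from hy, hb.hom]
      inv_mem' := by
        intro x hx
        have : x⁻¹ = x := inv_eq_of_mul_eq_one_left (hW x)
        rw [this]
        exact hx }
  have hE : (t.bipartiteAbove rel u₀).card + 1 = Nat.card E := by
    have e0 : t.bipartiteAbove rel u₀ = (Finset.univ.filter (· ∈ E)).erase 1 := by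
      ext w
      simp only [Finset.mem_bipartiteAbove, t, Finset.mem_filter, Finset.mem_univ, true_and,
        Finset.mem_erase, rel]
      constructor
      · rintro ⟨h3, h4⟩
        exact ⟨h3, h4⟩
      · rintro ⟨h3, h4⟩
        exact ⟨h3, h4⟩
    rw [e0, Finset.card_erase_of_mem (by simp [E.one_mem])]
    have : Nat.card E = (Finset.univ.filter (· ∈ E)).card := by
      rw [Nat.card_eq_fintype_card, Fintype.card_subtype]
    rw [this]
    have hpos : 0 < (Finset.univ.filter (· ∈ E)).card :=
      Finset.card_pos.mpr ⟨1, by simp [E.one_mem]⟩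
    omega
  have hA : (s.bipartiteBelow rel w₀).card = Nat.card A := by
    have : Nat.card A = (Finset.univ.filter (· ∈ A)).card := by
      rw [Nat.card_eq_fintype_card, Fintype.card_subtype]
    rw [this]
    symm
    apply Finset.card_equiv (Equiv.mulLeft u₀)
    intro u
    simp only [s, Finset.mem_filter, Finset.mem_univ, true_and, Finset.mem_bipartiteBelow, rel]
    show G u w₀ = 1 ↔ u₀ * u ≠ 1 ∧ G (u₀ * u) w₀ = b l w₀
    rw [G_l, hl]
    constructor
    · intro h3
      refine ⟨?_, by rw [h3, mul_one]⟩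
      intro e
      rw [show u = u₀⁻¹ from eq_inv_of_mul_eq_one_right e] at h3
      have hi : u₀⁻¹ = u₀ := inv_eq_of_mul_eq_one_left (hV u₀)
      rw [hi] at h3
      exact hG h3
    · rintro ⟨-, h3⟩
      exact mul_eq_left.mp h3
  obtain ⟨m, hm⟩ := IsPGroup.iff_card.mp (hpV.to_subgroup A)
  obtain ⟨f, hf⟩ := IsPGroup.iff_card.mp (hpW.to_subgroup E)
  have hEq : 2 ^ m + 1 = 2 ^ f := by
    rw [← hm, ← hf, ← hA, ← hrt, hE]
  have hm0 : m = 0 := by
    by_contra hne
    obtain ⟨m', rfl⟩ := Nat.exists_eq_succ_of_ne_zero hne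
    rcases f with _ | f
    · simp only [pow_zero] at hEq
      have : 0 < 2 ^ (m' + 1) := by positivity
      omega
    · rw [pow_succ, pow_succ] at hEq
      omega
  have hA1 : ∀ u, G u w₀ = 1 → u = 1 := by
    subst hm0
    rw [pow_zero] at hm
    intro u hu
    have := (Nat.card_eq_one_iff_unique.mp hm).1
    have h3 : (⟨u, hu⟩ : A) = 1 := Subsingleton.elim _ _
    exact congrArg Subtype.val h3
  intro u w huw
  by_cases hw : w = 1
  · exact Or.inr hw
  left
  obtain ⟨k, rfl⟩ := b_reg w₀ w hw₀ hw
  have h3 : G (a k⁻¹ u) w₀ = 1 := by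
    have := equi k⁻¹ u (b k w₀)
    rw [hb.inv_act, huw, hb.map_one] at this
    exact this
  have h4 := hA1 _ h3
  have := ha.act_inv k u
  rw [h4, ha.map_one] at this
  exact this.symm

end Cfsg.Agent.Lib.SuzukiTwo.BiCount
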