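import Mathlib
import Cfsg.Agent.Lib.SuzukiTwo.BiCount

set_option autoImplicit false

/-! The abstract core of Higman's theorem on Suzuki 2-groups: the fourth power map on the quotient
by a self-centralising abelian normal subgroup of exponent 4 vanishes. -/

namespace Cfsg.Agent.Lib.SuzukiTwo.Abstract

open Cfsg.Agent.Lib.SuzukiTwo.BiCount

variable {Y Om K : Type*} [CommGroup Y] [CommGroup Om] [CommGroup K]

/-- a hom out of an elementary abelian 2-group sending a given non-identity element anywhere -/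
theorem exists_hom [Finite Om] (hOm : ∀ v : Om, v * v = 1) (hY : ∀ y : Y, y * y = 1) {w : Om}
    (hw : w ≠ 1) (y : Y) : ∃ u : Om →* Y, u w = y := by
  classical
  obtain ⟨L, -, hL⟩ := Finite.exists_le_maximal (α := Subgroup Om)
    (p := fun L : Subgroup Om => w ∉ L) (a := ⊥) (by simpa using hw)
  have hwL : w ∉ L := hL.prop
  have key : ∀ x : Om, x ∉ L → x * w ∈ L := by
    intro x hx
    have hlt : L < L ⊔ Subgroup.closure {x} := by
      refine lt_of_le_of_ne le_sup_left ?_
      intro e
      apply hx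
      rw [e]
      exact (le_sup_right : Subgroup.closure {x} ≤ L ⊔ Subgroup.closure {x})
        (Subgroup.mem_closure_singleton_self x)
    have hw' : w ∈ L ⊔ Subgroup.closure {x} := by
      by_contra hno
      exact absurd (hL.le_of_ge hno hlt.le) (not_le_of_gt hlt)
    rw [Subgroup.mem_sup] at hw'
    obtain ⟨l, hl, c, hc, e⟩ := hw'
    rw [Subgroup.mem_closure_singleton] at hc
    obtain ⟨n, rfl⟩ := hc
    have hzn : ∀ n : ℤ, x ^ n = 1 ∨ x ^ n = x := by
      intro n
      rcases Int.even_or_odd' n with ⟨m, rfl | rfl⟩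
      · left
        rw [zpow_mul, zpow_two, hOm, one_zpow]
      · right
        rw [zpow_add, zpow_mul, zpow_two, hOm, one_zpow, one_mul, zpow_one]
    rcases hzn n with h1 | h1
    · exfalso
      rw [h1, mul_one] at e
      exact hwL (e ▸ hl)
    · rw [h1] at e
      rw [← e]
      have : x * (l * x) = l * (x * x) := by ac_rfl
      rw [this, hOm, mul_one]
      exact hl
  refine ⟨⟨⟨fun z => if z ∈ L then 1 else y, by simp [L.one_mem]⟩, ?_⟩, ?_⟩
  · intro p r
    by_cases hp : p ∈ L <;> by_cases hr : r ∈ L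
    · simp [hp, hr, L.mul_mem hp hr]
    · have : p * r ∉ L := fun h => hr (by simpa [hp] using L.mul_mem (L.inv_mem hp) h)
      simp [hp, hr, this]
    · have : p * r ∉ L := fun h => hp (by simpa [hr] using L.mul_mem h (L.inv_mem hr))
      simp [hp, hr, this]
    · have h1 := key p hp
      have h2 := key r hr
      have : p * r ∈ L := by
        have e : p * r = (p * w) * (r * w) := by
          calc p * r = p * r * (w * w) := by rw [hOm, mul_one]
            _ = (p * w) * (r * w) := by ac_rfl
        rw [e]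
        exact L.mul_mem h1 h2
      simp [hp, hr, this, hY]
  · show (if w ∈ L then 1 else y) = y
    simp [hwL]

/-- the data of the abstract situation -/
structure Data (a : K → Y → Y) (b : K → Om → Om) (F : Y → Om → Om) (S : Y → Om)
    (B : Y → Y → Om) : Prop where
  hY : ∀ y : Y, y * y = 1
  hOm : ∀ v : Om, v * v = 1
  ha : IsAct a
  hb : IsAct b
  afree : ∀ k y, a k y = y → y ≠ 1 → k = 1
  bfree : ∀ k v, b k v = v → v ≠ 1 → k = 1
  breg : ∀ x y : Om, x ≠ 1 → y ≠ 1 → ∃ k, b k x = y
  oddK : Odd (Nat.card K)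
  nontrivK : ∃ k : K, k ≠ 1
  omne : ∃ v : Om, v ≠ 1
  F_l : ∀ y y' v, F (y * y') v = F y v * F y' v
  F_r : ∀ y v v', F y (v * v') = F y v * F y v'
  F_equi : ∀ k y v, F (a k y) (b k v) = b k (F y v)
  F_faith : ∀ y, (∀ v, F y v = 1) → y = 1
  B_l : ∀ x x' y, B (x * x') y = B x y * B x' y
  B_r : ∀ x y y', B x (y * y') = B x y * B x y'
  B_self : ∀ y, B y y = 1
  B_symm : ∀ x y, B x y = B y x
  S_mul : ∀ x y, S (x * y) = S x * S y * B x y
  R2 : ∀ h g, F h (S g) = B h g * F g (B h g)

section

variable {a : K → Y → Y} {b : K → Om → Om} {F : Y → Om → Om} {S : Y → Om} {B : Y → Y → Om}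
  (D : Data a b F S B)

/-- a hom from `Om` to `Y` intertwining the action up to a coprime power -/
structure Nice (a : K → Y → Y) (b : K → Om → Om) (θ : Om →* Y) (j : ℕ) : Prop where
  cop : Nat.Coprime (Nat.card K) j
  equi : ∀ (l : K) (c : Om), a l (θ c) = θ (b (l ^ j) c)

include D

theorem F_one (y : Y) : F y 1 = 1 := by
  have := D.F_r y 1 1
  rw [mul_one] at this
  exact left_eq_mul.mp this

theorem F_one' (v : Om) : F 1 v = 1 := by
  have := D.F_l 1 1 v
  rw [mul_one] at this
  exact left_eq_mul.mp this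

theorem B_one_r (x : Y) : B x 1 = 1 := by
  have := D.B_r x 1 1
  rw [mul_one] at this
  exact left_eq_mul.mp this

theorem B_one_l (x : Y) : B 1 x = 1 := by
  have := D.B_l 1 1 x
  rw [mul_one] at this
  exact left_eq_mul.mp this

theorem S_one : S 1 = 1 := by
  have := D.S_mul 1 1
  rw [mul_one, D.B_self, mul_one] at this
  exact left_eq_mul.mp this

theorem F_ne_id {h : Y} (hh : h ≠ 1) : ∃ v, F h v ≠ v := by
  by_contra hno
  push Not at hno
  obtain ⟨k, hk⟩ := D.nontrivK
  apply hk
  apply D.afree k h _ hh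
  have h1 : ∀ v, F (a k h) v = v := by
    intro v
    have := D.F_equi k h (b k⁻¹ v)
    rw [D.hb.act_inv, hno] at this
    rw [this, D.hb.act_inv]
  have h2 : a k h * h = 1 := by
    apply D.F_faith
    intro v
    rw [D.F_l, h1, hno, D.hOm]
  have := D.hY h
  exact mul_right_cancel (h2.trans this.symm)

variable [Finite Om] [Finite K]

theorem nice_inj {θ : Om →* Y} {j : ℕ} (hθ : Nice a b θ j) (hne : ∃ c, θ c ≠ 1) :
    ∀ c v, F (θ c) v = 1 → c = 1 ∨ v = 1 := by
  have hsurj : ∀ m : K, ∃ l : K, l ^ j = m := by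
    intro m
    exact ⟨(powCoprime hθ.cop).symm m, (powCoprime hθ.cop).apply_symm_apply m⟩
  have hact : IsAct (fun (l : K) (c : Om) => b (l ^ j) c) :=
    { one := by
        intro v
        simp only [one_pow]
        exact D.hb.one v
      mul := by
        intro k l v
        simp only [mul_pow]
        exact D.hb.mul _ _ _
      hom := by
        intro k u v
        exact D.hb.hom _ _ _ }
  refine bi_inj D.hOm D.hOm hact D.hb ?_ D.breg rfl (fun c v => F (θ c) v) ?_ ?_ ?_ ?_
  · intro x y hx hy
    obtain ⟨m, hm⟩ := D.breg x y hx hy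
    obtain ⟨l, rfl⟩ := hsurj m
    exact ⟨l, hm⟩
  · intro u u' w
    simp only [map_mul]
    exact D.F_l _ _ _
  · intro u w w'
    exact D.F_r _ _ _
  · intro k u w
    show F (θ (b (k ^ j) u)) (b k w) = b k (F (θ u) w)
    rw [← hθ.equi, D.F_equi]
  · obtain ⟨c, hc⟩ := hne
    by_contra hno
    push Not at hno
    exact hc (D.F_faith _ (fun v => hno c v))

theorem nice_S {θ : Om →* Y} {j : ℕ} (hθ : Nice a b θ j) (c : Om) : S (θ c) = 1 := by
  by_cases hne : ∃ c, θ c ≠ 1
  · rcases nice_inj D hθ hne c (S (θ c)) (by rw [D.R2, D.B_self, one_mul, F_one D]) with h | h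
    · rw [h, map_one, S_one D]
    · exact h
  · push Not at hne
    rw [hne, S_one D]

theorem nice_B {θ₁ θ₂ : Om →* Y} {j₁ j₂ : ℕ} (h₁ : Nice a b θ₁ j₁) (h₂ : Nice a b θ₂ j₂)
    (c₁ c₂ : Om) : B (θ₂ c₂) (θ₁ c₁) = 1 := by
  by_contra hw
  set h := θ₂ c₂ with hdef
  set w := B h (θ₁ c₁) with hwdef
  have hh : h ≠ 1 := by
    intro e
    apply hw
    rw [hwdef, e, B_one_l D]
  have hg : θ₁ c₁ ≠ 1 := by
    intro e
    apply hw
    rw [hwdef, e, B_one_r D]
  have hne : ∃ c, θ₁ c ≠ 1 := ⟨c₁, hg⟩
  have hSh : S h = 1 := nice_S D h₂ c₂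
  have inv_eq : ∀ v : Om, v⁻¹ = v := fun v => inv_eq_of_mul_eq_one_left (D.hOm v)
  let β : Om →* Om :=
    { toFun := fun c => B h (θ₁ c)
      map_one' := by rw [map_one, B_one_r D]
      map_mul' := by
        intro x y
        rw [map_mul, D.B_r] }
  have hβ : ∀ c, β c = B h (θ₁ c) := fun _ => rfl
  have fix1 : ∀ c, F h (β c) = β c := by
    intro c
    have := D.R2 (θ₁ c) h
    rw [hSh, F_one D, D.B_symm (θ₁ c) h, ← hβ] at this
    have e := eq_inv_of_mul_eq_one_right this.symm
    rw [inv_eq] at e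
    exact e
  have fix2 : ∀ c, F (θ₁ c) (β c) = β c := by
    intro c
    have := D.R2 h (θ₁ c)
    rw [nice_S D h₁, F_one D, ← hβ] at this
    have e := eq_inv_of_mul_eq_one_right this.symm
    rw [inv_eq] at e
    exact e
  have hβni : ¬ Function.Injective β := by
    intro hinj
    have hsurj := Finite.injective_iff_surjective.mp hinj
    obtain ⟨v, hv⟩ := F_ne_id D hh
    obtain ⟨c, rfl⟩ := hsurj v
    exact hv (fix1 c)
  have : ∃ c₀, c₀ ≠ 1 ∧ β c₀ = 1 := by
    rw [Function.Injective] at hβni
    push Not at hβni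
    obtain ⟨x, y, hxy, hne'⟩ := hβni
    refine ⟨x * y, ?_, ?_⟩
    · intro e
      apply hne'
      have := eq_inv_of_mul_eq_one_left e
      rw [this, inv_eq]
    · rw [map_mul, hxy, D.hOm]
  obtain ⟨c₀, hc₀, hβ0⟩ := this
  have hβw : β c₁ = w := rfl
  have h1 : F (θ₁ c₁) w = w := fix2 c₁
  have h2 : F (θ₁ (c₁ * c₀)) w = w := by
    have := fix2 (c₁ * c₀)
    rwa [map_mul β, hβ0, mul_one, hβw] at this
  have e : θ₁ c₀ = θ₁ c₁ * θ₁ (c₁ * c₀) := by
    rw [← map_mul, ← mul_assoc, D.hOm, one_mul]
  have h3 : F (θ₁ c₀) w = 1 := by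
    rw [e, D.F_l, h1, h2, D.hOm]
  rcases nice_inj D h₁ hne c₀ w h3 with h4 | h4
  · exact hc₀ h4
  · exact hw h4

/-- the subgroup generated by the images of the nice maps -/
def niceSet (a : K → Y → Y) (b : K → Om → Om) : Set Y :=
  {y | ∃ (θ : Om →* Y) (j : ℕ), Nice a b θ j ∧ ∃ c, y = θ c}

theorem closure_niceSet (y : Y) : y ∈ Subgroup.closure (niceSet a b) := by
  classical
  haveI := Fintype.ofFinite K
  obtain ⟨w, hw⟩ := D.omne
  obtain ⟨u, hu⟩ := exists_hom D.hOm D.hY hw y
  -- the hom for each exponent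
  let aH : K → Y →* Y := fun k =>
    { toFun := a k
      map_one' := D.ha.map_one k
      map_mul' := D.ha.hom k }
  have aH_apply : ∀ k y, aH k y = a k y := fun _ _ => rfl
  let θ : ℕ → Om →* Y := fun j =>
    { toFun := fun c => ∏ k : K, a k (u (b (k⁻¹ ^ j) c))
      map_one' := by
        apply Finset.prod_eq_one
        intro k _
        rw [D.hb.map_one, map_one, D.ha.map_one]
      map_mul' := by
        intro x y
        rw [← Finset.prod_mul_distrib]
        apply Finset.prod_congr rfl
        intro k _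
        rw [D.hb.hom, map_mul, D.ha.hom] }
  have θ_apply : ∀ j c, θ j c = ∏ k : K, a k (u (b (k⁻¹ ^ j) c)) := fun _ _ => rfl
  have equi : ∀ j (l : K) (c : Om), a l (θ j c) = θ j (b (l ^ j) c) := by
    intro j l c
    rw [← aH_apply, θ_apply, θ_apply, map_prod]
    apply Fintype.prod_equiv (Equiv.mulLeft l)
    intro k
    rw [aH_apply, ← D.ha.mul]
    show a (l * k) _ = a (l * k) (u (b ((l * k)⁻¹ ^ j) (b (l ^ j) c)))
    rw [← D.hb.mul, ← mul_pow]
    congr 4
    rw [mul_inv_rev, mul_assoc, inv_mul_cancel, mul_one]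
  -- recovery
  have hprod : ∏ j ∈ Finset.range (Nat.card K), θ j w = y := by
    simp only [θ_apply]
    rw [Finset.prod_comm]
    rw [Finset.prod_eq_single (1 : K)]
    · simp only [inv_one, one_pow, D.hb.one, D.ha.one, Finset.prod_const, Finset.card_range]
      rw [hu]
      obtain ⟨m, hm⟩ := D.oddK
      rw [hm, pow_succ, pow_mul, pow_two, D.hY, one_pow, one_mul]
    · intro k _ hk
      have hk' : k⁻¹ ≠ 1 := by simpa using hk
      set m := k⁻¹ with hm
      have e1 : ∏ j ∈ Finset.range (Nat.card K), a k (u (b (m ^ j) w)) =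
          a k (u (∏ j ∈ Finset.range (Nat.card K), b (m ^ j) w)) := by
        rw [map_prod, ← aH_apply, map_prod]
        rfl
      rw [e1]
      have hfix : b m (∏ j ∈ Finset.range (Nat.card K), b (m ^ j) w) =
          ∏ j ∈ Finset.range (Nat.card K), b (m ^ j) w := by
        let bH : Om →* Om :=
          { toFun := b m
            map_one' := D.hb.map_one m
            map_mul' := D.hb.hom m }
        have : b m (∏ j ∈ Finset.range (Nat.card K), b (m ^ j) w) =
            ∏ j ∈ Finset.range (Nat.card K), b (m ^ (j + 1)) w := by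
          show bH _ = _
          rw [map_prod]
          apply Finset.prod_congr rfl
          intro j _
          show b m _ = _
          rw [← D.hb.mul, pow_succ']
        rw [this]
        have h1 := Finset.prod_range_succ (fun j => b (m ^ j) w) (Nat.card K)
        have h2 := Finset.prod_range_succ' (fun j => b (m ^ j) w) (Nat.card K)
        rw [pow_card_eq_one', D.hb.one] at h1
        rw [pow_zero, D.hb.one] at h2
        have := h1.symm.trans h2
        exact (mul_right_cancel this).symm
      have h1 : ∏ j ∈ Finset.range (Nat.card K), b (m ^ j) w = 1 := by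
        by_contra hne
        exact hk' (D.bfree _ _ hfix hne)
      rw [h1, map_one, D.ha.map_one]
    · intro h
      exact absurd (Finset.mem_univ _) h
  rw [← hprod]
  apply Subgroup.prod_mem
  intro j _
  by_cases hcop : Nat.Coprime (Nat.card K) j
  · apply Subgroup.subset_closure
    exact ⟨θ j, j, ⟨hcop, equi j⟩, w, rfl⟩
  · -- the value is trivial
    obtain ⟨r, hr, hrd⟩ := Nat.exists_prime_and_dvd hcop
    have hr1 : r ∣ Nat.card K := hrd.trans (Nat.gcd_dvd_left _ _)
    have hr2 : r ∣ j := hrd.trans (Nat.gcd_dvd_right _ _)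
    haveI := Fact.mk hr
    obtain ⟨l, hl⟩ := exists_prime_orderOf_dvd_card' r hr1
    have hl1 : l ≠ 1 := by
      intro e
      rw [e, orderOf_one] at hl
      exact hr.one_lt.ne hl
    have hlj : l ^ j = 1 := by
      rw [← orderOf_dvd_iff_pow_eq_one, hl]
      exact hr2
    have : θ j w = 1 := by
      by_contra hne
      apply hl1
      apply D.afree l _ _ hne
      rw [equi, hlj, D.hb.one]
    rw [this]
    exact Subgroup.one_mem _

theorem S_eq_one (y : Y) : S y = 1 := by
  have hB1 : ∀ x ∈ Subgroup.closure (niceSet a b), ∀ g ∈ niceSet a b, B x g = 1 := by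
    intro x hx g hg
    obtain ⟨θ₁, j₁, h₁, c₁, rfl⟩ := hg
    induction hx using Subgroup.closure_induction with
    | mem x hx =>
      obtain ⟨θ₂, j₂, h₂, c₂, rfl⟩ := hx
      exact nice_B D h₁ h₂ c₁ c₂
    | one => exact B_one_l D _
    | mul x y _ _ hx hy => rw [D.B_l, hx, hy, one_mul]
    | inv x _ hx =>
      have e : x⁻¹ = x := inv_eq_of_mul_eq_one_left (D.hY x)
      rw [e]
      exact hx
  have hB2 : ∀ x ∈ Subgroup.closure (niceSet a b), ∀ g ∈ Subgroup.closure (niceSet a b),
      B x g = 1 := by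
    intro x hx g hg
    induction hg using Subgroup.closure_induction with
    | mem g hg => exact hB1 x hx g hg
    | one => exact B_one_r D _
    | mul y z _ _ hy hz => rw [D.B_r, hy, hz, one_mul]
    | inv z _ hz =>
      have e : z⁻¹ = z := inv_eq_of_mul_eq_one_left (D.hY z)
      rw [e]
      exact hz
  have hS : ∀ x ∈ Subgroup.closure (niceSet a b), S x = 1 := by
    intro x hx
    induction hx using Subgroup.closure_induction with
    | mem x hx =>
      obtain ⟨θ, j, h, c, rfl⟩ := hx
      exact nice_S D h c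
    | one => exact S_one D
    | mul x y hx' hy' hx hy => rw [D.S_mul, hx, hy, hB2 x hx' y hy', one_mul, one_mul]
    | inv x _ hx =>
      have e : x⁻¹ = x := inv_eq_of_mul_eq_one_left (D.hY x)
      rw [e]
      exact hx
  exact hS y (closure_niceSet D y)

end

end Cfsg.Agent.Lib.SuzukiTwo.Abstract
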