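import Mathlib

set_option autoImplicit false

/-! Hua's lemma: a biadditive alternating form equivariant for a group regular on the nonzero
vectors (in which every element is a square) vanishes. -/

namespace Cfsg.Agent.Lib.SuzukiTwo.Hua

theorem hua {V K : Type*} [CommGroup V] [CommGroup K] (hV : ∀ v : V, v * v = 1)
    (act : K → V → V) (act_one : ∀ v, act 1 v = v)
    (act_mul : ∀ k l v, act (k * l) v = act k (act l v))
    (act_hom : ∀ k u v, act k (u * v) = act k u * act k v)
    (reg : ∀ x y : V, x ≠ 1 → y ≠ 1 → ∃ k : K, act k x = y)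
    (sq : ∀ k : K, ∃ l : K, l * l = k)
    (c : V → V → V)
    (add_l : ∀ u u' v, c (u * u') v = c u v * c u' v)
    (add_r : ∀ u v v', c u (v * v') = c u v * c u v')
    (alt : ∀ u, c u u = 1)
    (equi : ∀ k u v, c (act k u) (act k v) = act k (c u v)) :
    ∀ u v, c u v = 1 := by
  have inv_eq : ∀ v : V, v⁻¹ = v := fun v => inv_eq_of_mul_eq_one_left (hV v)
  have act_one' : ∀ k, act k 1 = 1 := by
    intro k
    have := act_hom k 1 1
    rw [mul_one] at this
    exact left_eq_mul.mp this
  have act_inv : ∀ k v, act k⁻¹ (act k v) = v := by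
    intro k v; rw [← act_mul, inv_mul_cancel, act_one]
  have act_inv' : ∀ k v, act k (act k⁻¹ v) = v := by
    intro k v; rw [← act_mul, mul_inv_cancel, act_one]
  have act_comm : ∀ k l v, act k (act l v) = act l (act k v) := by
    intro k l v; rw [← act_mul, ← act_mul, mul_comm]
  have c_one_r : ∀ u, c u 1 = 1 := by
    intro u
    have := add_r u 1 1
    rw [mul_one] at this
    exact left_eq_mul.mp this
  have c_one_l : ∀ u, c 1 u = 1 := by
    intro u
    have := add_l 1 1 u
    rw [mul_one] at this
    exact left_eq_mul.mp this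
  have symm : ∀ u v, c u v = c v u := by
    intro u v
    have h := alt (u * v)
    rw [add_l, add_r, add_r, alt, alt, one_mul, mul_one] at h
    have := eq_inv_of_mul_eq_one_left h
    rw [this, inv_eq]
  have key : ∀ z : V, z ≠ 1 → ∀ γ : K, c z (act (γ * γ) z) = 1 := by
    intro z hz γ
    by_cases hγ : act γ z = z
    · rw [act_mul, hγ, hγ, alt]
    have hne : act γ z * z ≠ 1 := by
      intro h
      apply hγ
      have := eq_inv_of_mul_eq_one_left h
      rw [this, inv_eq]
    obtain ⟨β, hβ⟩ := reg z _ hz hne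
    have h1 : ∀ α : K, c z (act α z) = act α (c z (act α⁻¹ z)) := by
      intro α
      rw [symm z (act α z), ← equi]
      rw [act_inv']
    have h2 : c z (act β z) = c z (act γ z) := by
      rw [hβ, add_r, alt, mul_one]
    have h3 : act (γ * β)⁻¹ z = act γ⁻¹ z * act β⁻¹ z := by
      have e := congrArg (act (γ * β)⁻¹) hβ
      rw [act_hom] at e
      have e1 : act (γ * β)⁻¹ (act β z) = act γ⁻¹ z := by
        rw [← act_mul]; congr 1; rw [mul_inv, inv_mul_cancel_right]
      have e2 : act (γ * β)⁻¹ (act γ z) = act β⁻¹ z := by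
        rw [← act_mul]; congr 1; rw [mul_comm γ β, mul_inv, inv_mul_cancel_right]
      rw [e1, e2] at e
      rw [e, mul_comm (act β⁻¹ z), mul_assoc, hV, mul_one]
    set w := c z (act γ z) with hw
    have h4 : c z (act (γ * β) z) = act β w * act γ w := by
      rw [h1 (γ * β), h3, add_r, act_hom]
      have e1 := h1 γ⁻¹
      have e2 := h1 β⁻¹
      rw [inv_inv] at e1 e2
      rw [e1, e2, h2]
      congr 1
      · rw [← act_mul]; congr 1; rw [mul_comm γ β, mul_inv_cancel_right]
      · rw [← act_mul]; congr 1; rw [mul_inv_cancel_right]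
    have h5 : act β w * act γ w = w := by
      by_cases hw1 : w = 1
      · rw [hw1, act_one', act_one', one_mul]
      obtain ⟨δ, hδ⟩ := reg z w hz hw1
      rw [← hδ, act_comm β, act_comm γ, ← act_hom, hβ]
      congr 1
      rw [mul_comm (act γ z) z, mul_assoc, hV, mul_one]
    have h6 : act (γ * γ) z = act (γ * β) z * act γ z := by
      rw [act_mul γ β, hβ, act_hom, ← act_mul, mul_assoc, hV, mul_one]
    rw [h6, add_r, h4, h5, hV]
  intro u v
  by_cases hu : u = 1
  · rw [hu, c_one_l]
  by_cases hv : v = 1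
  · rw [hv, c_one_r]
  obtain ⟨k, hk⟩ := reg u v hu hv
  obtain ⟨l, hl⟩ := sq k
  rw [← hk, ← hl]
  exact key u hu l

end Cfsg.Agent.Lib.SuzukiTwo.Hua
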