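import Mathlib
import Cfsg.Prelude.Def_LieRecognition
import Cfsg.Agent.Lib.SuzukiTwo.Hua

set_option autoImplicit false

/-! Basic facts on 2-groups with a cyclic group of automorphisms regular on the involutions. -/

namespace Cfsg.Agent.Lib.SuzukiTwo.Basic

variable {P : Type*} [Group P]

/-- the hypotheses on a Suzuki 2-group other than non-commutativity -/
structure Ctx (K : Subgroup (MulAut P)) : Prop where
  finite : Finite P
  pgroup : IsPGroup 2 P
  two : ∃ x y : P, x ≠ y ∧ x ≠ 1 ∧ x * x = 1 ∧ y ≠ 1 ∧ y * y = 1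
  cyc : IsCyclic K
  reg : ∀ x y : P, x ≠ 1 → x * x = 1 → y ≠ 1 → y * y = 1 → ∃! k : K, (k : MulAut P) x = y

theorem exists_ctx (hP : Cfsg.IsSuzukiTwoGroup P) : ∃ K : Subgroup (MulAut P), Ctx K := by
  obtain ⟨h1, h2, _, h4, K, h5, h6⟩ := hP
  exact ⟨K, ⟨h1, h2, h4, h5, h6⟩⟩

theorem exists_pow_invol (hp : IsPGroup 2 P) {x : P} (hx : x ≠ 1) :
    ∃ n : ℕ, x ^ n ≠ 1 ∧ x ^ n * x ^ n = 1 := by
  obtain ⟨m, hm⟩ := (IsPGroup.iff_orderOf (p := 2)).mp hp x
  have hm0 : m ≠ 0 := by
    rintro rfl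
    rw [pow_zero, orderOf_eq_one_iff] at hm
    exact hx hm
  obtain ⟨l, rfl⟩ := Nat.exists_eq_succ_of_ne_zero hm0
  refine ⟨2 ^ l, ?_, ?_⟩
  · apply pow_ne_one_of_lt_orderOf
    · positivity
    · rw [hm, pow_succ]; have : 0 < 2 ^ l := by positivity
      omega
  · rw [← pow_add, ← two_mul, ← pow_succ', ← hm, pow_orderOf_eq_one]

theorem exists_pow_four (hp : IsPGroup 2 P) {x : P} (hx : x * x ≠ 1) :
    ∃ n : ℕ, x ^ n * x ^ n ≠ 1 ∧ (x ^ n * x ^ n) * (x ^ n * x ^ n) = 1 := by
  obtain ⟨n, h1, h2⟩ := exists_pow_invol hp hx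
  have e : (x * x) ^ n = x ^ n * x ^ n := by
    have : Commute x x := Commute.refl x
    rw [this.mul_pow]
  rw [e] at h1 h2
  exact ⟨n, h1, h2⟩

namespace Ctx

variable {K : Subgroup (MulAut P)}

theorem exists_k (h : Ctx K) {x y : P} (hx : x ≠ 1) (hx2 : x * x = 1) (hy : y ≠ 1)
    (hy2 : y * y = 1) : ∃ k ∈ K, k x = y := by
  obtain ⟨k, hk, -⟩ := h.reg x y hx hx2 hy hy2
  exact ⟨k, k.2, hk⟩

theorem eq_one_of_fix (h : Ctx K) {k : MulAut P} (hk : k ∈ K) {x : P} (hx : x ≠ 1)
    (hfix : k x = x) : k = 1 := by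
  obtain ⟨n, h1, h2⟩ := exists_pow_invol h.pgroup hx
  obtain ⟨l, -, hu⟩ := h.reg (x ^ n) (x ^ n) h1 h2 h1 h2
  have e1 : (⟨k, hk⟩ : K) = l := hu _ (by simp [map_pow, hfix])
  have e2 : (1 : K) = l := hu _ (by simp)
  have := e1.trans e2.symm
  simpa using congrArg Subtype.val this

theorem aut_center {k : MulAut P} {x : P} (hx : x ∈ Subgroup.center P) : k x ∈ Subgroup.center P := by
  rw [Subgroup.mem_center_iff] at hx ⊢
  intro g
  have := hx (k⁻¹ g)
  have := congrArg k this
  simpa using this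

theorem invol_center (h : Ctx K) {x : P} (hx : x * x = 1) : x ∈ Subgroup.center P := by
  by_cases hx1 : x = 1
  · rw [hx1]; exact Subgroup.one_mem _
  haveI := h.finite
  haveI : Nontrivial P := ⟨⟨x, 1, hx1⟩⟩
  haveI := h.pgroup.center_nontrivial
  obtain ⟨z, hz⟩ := exists_ne (1 : Subgroup.center P)
  have hz' : (z : P) ≠ 1 := fun e => hz (Subtype.ext e)
  obtain ⟨n, h1, h2⟩ := exists_pow_invol h.pgroup hz'
  obtain ⟨k, -, hk⟩ := h.exists_k h1 h2 hx1 hx
  rw [← hk]
  exact aut_center (Subgroup.pow_mem _ z.2 n)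

/-- the subgroup of elements with square one -/
def Om (h : Ctx K) : Subgroup P where
  carrier := {x | x * x = 1}
  one_mem' := by simp
  mul_mem' := by
    intro a b ha hb
    simp only [Set.mem_setOf_eq] at ha hb ⊢
    have hc := (Subgroup.mem_center_iff.mp (h.invol_center hb)) a
    calc a * b * (a * b) = a * (b * a) * b := by group
      _ = a * (a * b) * b := by rw [← hc]
      _ = (a * a) * (b * b) := by group
      _ = 1 := by rw [ha, hb, one_mul]
  inv_mem' := by
    intro a ha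
    simp only [Set.mem_setOf_eq] at ha ⊢
    rw [← mul_inv_rev, ha, inv_one]

theorem mem_Om (h : Ctx K) {x : P} : x ∈ h.Om ↔ x * x = 1 := Iff.rfl

theorem finite_K (h : Ctx K) : Finite K := by
  haveI := h.finite
  infer_instance

theorem card_K (h : Ctx K) : Nat.card K + 1 = Nat.card h.Om := by
  haveI := h.finite
  haveI := h.finite_K
  obtain ⟨x, -, -, hx, hx2, -, -⟩ := h.two
  classical
  -- the bijection k ↦ k x from K to the non-identity elements of Om
  let f : K → {w : h.Om // w ≠ 1} := fun k => ⟨⟨(k : MulAut P) x, by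
      rw [mem_Om, ← map_mul, hx2, map_one]⟩, by
      intro e
      apply hx
      have := congrArg Subtype.val e
      simpa using this⟩
  have hf : Function.Bijective f := by
    constructor
    · intro k l e
      have e' : (k : MulAut P) x = (l : MulAut P) x := by
        have := congrArg (fun w => ((w.1 : h.Om) : P)) e
        simpa [f] using this
      have hne : (k : MulAut P) x ≠ 1 := by simpa using hx
      have hsq : (k : MulAut P) x * (k : MulAut P) x = 1 := by rw [← map_mul, hx2, map_one]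
      obtain ⟨u, -, hu⟩ := h.reg x ((k : MulAut P) x) hx hx2 hne hsq
      rw [hu k rfl, hu l e'.symm]
    · rintro ⟨w, hw⟩
      have hw' : (w : P) ≠ 1 := fun e => hw (Subtype.ext e)
      obtain ⟨k, hk, -⟩ := h.reg x w hx hx2 hw' w.2
      exact ⟨k, Subtype.ext (Subtype.ext hk)⟩
  have e := Nat.card_congr (Equiv.ofBijective f hf)
  rw [e]
  have hfin : Finite h.Om := inferInstance
  haveI := Fintype.ofFinite h.Om
  rw [Nat.card_eq_fintype_card, Nat.card_eq_fintype_card, Fintype.card_subtype_compl]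
  simp only [Fintype.card_unique]
  have : Fintype.card h.Om ≠ 0 := Fintype.card_ne_zero
  omega

theorem odd_card_K (h : Ctx K) : Odd (Nat.card K) := by
  haveI := h.finite
  have hcard := h.card_K
  have hp : IsPGroup 2 h.Om := h.pgroup.to_subgroup _
  obtain ⟨n, hn⟩ := IsPGroup.iff_card.mp hp
  obtain ⟨x, -, -, hx, hx2, -, -⟩ := h.two
  have hn0 : n ≠ 0 := by
    rintro rfl
    rw [pow_zero] at hn
    haveI : Subsingleton h.Om := (Nat.card_eq_one_iff_unique.mp hn).1
    have : (⟨x, hx2⟩ : h.Om) = 1 := Subsingleton.elim _ _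
    exact hx (congrArg Subtype.val this)
  obtain ⟨l, rfl⟩ := Nat.exists_eq_succ_of_ne_zero hn0
  rw [hn, pow_succ] at hcard
  have : 0 < 2 ^ l := by positivity
  rw [Nat.odd_iff]
  omega

theorem exists_sqrt_K (h : Ctx K) (k : K) : ∃ l : K, l * l = k := by
  haveI := h.finite_K
  obtain ⟨m, hm⟩ := h.odd_card_K
  refine ⟨k ^ (m + 1), ?_⟩
  rw [← pow_add]
  have : m + 1 + (m + 1) = Nat.card K + 1 := by omega
  rw [this, pow_succ, pow_card_eq_one', one_mul]

end Ctx

end Cfsg.Agent.Lib.SuzukiTwo.Basic
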