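import Mathlib
import Cfsg.Prelude.Def_LieRecognition
import Cfsg.Agent.Lib.SuzukiTwo.Basic

set_option autoImplicit false
set_option linter.style.haveILetI false

/-! A Suzuki 2-group has all its involutions central and elementary abelian centre
(Higman's theorem `Z(P) = Ω₁(P)`). -/

namespace Cfsg.Agent.Lib.SuzukiTwo.Central

open Cfsg.Agent.Lib.SuzukiTwo.Basic

variable {P : Type*} [Group P] {K : Subgroup (MulAut P)}

theorem hua_lift (h : Ctx K) {N : Subgroup P} (π : P → P)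
    (hπ : ∀ g ∈ N, π g * π g = 1)
    (surj : ∀ w : P, w * w = 1 → ∃ g ∈ N, π g = w)
    (hom : ∀ g ∈ N, ∀ g' ∈ N, π (g * g') = π g * π g')
    (inv : ∀ k ∈ K, ∀ g ∈ N, k g ∈ N ∧ π (k g) = k (π g))
    (c : P → P → P)
    (hc : ∀ g ∈ N, ∀ g' ∈ N, c g g' * c g g' = 1)
    (wd : ∀ g ∈ N, ∀ g' ∈ N, ∀ l ∈ N, ∀ l' ∈ N, π g = π g' → π l = π l' → c g l = c g' l')
    (add_l : ∀ g ∈ N, ∀ g' ∈ N, ∀ l ∈ N, c (g * g') l = c g l * c g' l)
    (add_r : ∀ g ∈ N, ∀ l ∈ N, ∀ l' ∈ N, c g (l * l') = c g l * c g l')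
    (alt : ∀ g ∈ N, c g g = 1)
    (equi : ∀ k ∈ K, ∀ g ∈ N, ∀ l ∈ N, c (k g) (k l) = k (c g l)) :
    ∀ g ∈ N, ∀ l ∈ N, c g l = 1 := by
  have comm : ∀ x y : h.Om, x * y = y * x := by
    intro x y
    apply Subtype.ext
    exact ((Subgroup.mem_center_iff.mp (h.invol_center x.2)) y).symm
  letI iV : CommGroup h.Om := { (inferInstance : Group h.Om) with mul_comm := comm }
  haveI := h.cyc
  letI iK : CommGroup K := IsCyclic.commGroup
  choose! s hs hs' using surj
  let sec : h.Om → P := fun v => s v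
  have sec_mem : ∀ v, sec v ∈ N := fun v => hs v v.2
  have sec_π : ∀ v, π (sec v) = v := fun v => hs' v v.2
  let act : K → h.Om → h.Om := fun k v => ⟨(k : MulAut P) v, by
    rw [Ctx.mem_Om, ← map_mul]
    have : (v : P) * v = 1 := v.2
    rw [this, map_one]⟩
  let c' : h.Om → h.Om → h.Om := fun u v =>
    ⟨c (sec u) (sec v), hc _ (sec_mem u) _ (sec_mem v)⟩
  have key := Hua.hua (V := h.Om) (K := K) (fun v => Subtype.ext v.2) act
    (by intro v; apply Subtype.ext; rfl)
    (by intro k l v; apply Subtype.ext; rfl)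
    (by intro k u v; apply Subtype.ext; exact map_mul _ _ _)
    (by
      intro x y hx hy
      have hx' : (x : P) ≠ 1 := fun e => hx (Subtype.ext e)
      have hy' : (y : P) ≠ 1 := fun e => hy (Subtype.ext e)
      obtain ⟨k, hk, -⟩ := h.reg x y hx' x.2 hy' y.2
      exact ⟨k, Subtype.ext hk⟩)
    h.exists_sqrt_K c'
    (by
      intro u u' v
      apply Subtype.ext
      show c (sec (u * u')) (sec v) = c (sec u) (sec v) * c (sec u') (sec v)
      rw [← add_l _ (sec_mem u) _ (sec_mem u') _ (sec_mem v)]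
      apply wd _ (sec_mem _) _ (N.mul_mem (sec_mem u) (sec_mem u')) _ (sec_mem v) _ (sec_mem v) _ rfl
      rw [hom _ (sec_mem u) _ (sec_mem u'), sec_π, sec_π, sec_π]
      rfl)
    (by
      intro u v v'
      apply Subtype.ext
      show c (sec u) (sec (v * v')) = c (sec u) (sec v) * c (sec u) (sec v')
      rw [← add_r _ (sec_mem u) _ (sec_mem v) _ (sec_mem v')]
      apply wd _ (sec_mem _) _ (sec_mem u) _ (sec_mem _) _ (N.mul_mem (sec_mem v) (sec_mem v')) rfl
      rw [hom _ (sec_mem v) _ (sec_mem v'), sec_π, sec_π, sec_π]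
      rfl)
    (by
      intro u
      apply Subtype.ext
      exact alt _ (sec_mem u))
    (by
      intro k u v
      apply Subtype.ext
      show c (sec (act k u)) (sec (act k v)) = (k : MulAut P) (c (sec u) (sec v))
      rw [← equi _ k.2 _ (sec_mem u) _ (sec_mem v)]
      apply wd _ (sec_mem _) _ (inv _ k.2 _ (sec_mem u)).1 _ (sec_mem _) _
        (inv _ k.2 _ (sec_mem v)).1
      · rw [(inv _ k.2 _ (sec_mem u)).2, sec_π, sec_π]
      · rw [(inv _ k.2 _ (sec_mem v)).2, sec_π, sec_π])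
  intro g hg l hl
  have e := congrArg Subtype.val (key ⟨π g, hπ g hg⟩ ⟨π l, hπ l hl⟩)
  have e' : c (sec ⟨π g, hπ g hg⟩) (sec ⟨π l, hπ l hl⟩) = 1 := e
  rw [← e']
  apply wd _ hg _ (sec_mem _) _ hl _ (sec_mem _)
  · rw [sec_π]
  · rw [sec_π]

-- the standing assumption: some central element has square different from one
section Main

variable (h : Ctx K) (hz : ∃ z ∈ Subgroup.center P, z * z ≠ 1)

include h hz

theorem sq_surj {w : P} (hw : w * w = 1) : ∃ a ∈ Subgroup.center P, a * a = w := by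
  by_cases hw1 : w = 1
  · exact ⟨1, Subgroup.one_mem _, by rw [hw1, one_mul]⟩
  obtain ⟨z, hzc, hz1⟩ := hz
  obtain ⟨n, h1, h2⟩ := exists_pow_four h.pgroup hz1
  obtain ⟨k, -, hk⟩ := h.exists_k h1 h2 hw1 hw
  exact ⟨k (z ^ n), Ctx.aut_center (Subgroup.pow_mem _ hzc n), by rw [← map_mul, hk]⟩

theorem center_of_four {x : P} (hx : (x * x) * (x * x) = 1) : x ∈ Subgroup.center P := by
  obtain ⟨a, ha, e⟩ := sq_surj h hz hx
  have hc := Subgroup.mem_center_iff.mp ha
  have h1 : (x * a⁻¹) * (x * a⁻¹) = 1 := by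
    have hc' : a⁻¹ * x = x * a⁻¹ := by
      have := hc x
      rw [eq_mul_inv_iff_mul_eq, mul_assoc, this, ← mul_assoc, inv_mul_cancel, one_mul]
    calc (x * a⁻¹) * (x * a⁻¹) = x * (a⁻¹ * x) * a⁻¹ := by group
      _ = x * (x * a⁻¹) * a⁻¹ := by rw [hc']
      _ = (x * x) * (a * a)⁻¹ := by group
      _ = 1 := by rw [e, mul_inv_cancel]
  have h2 := h.invol_center h1
  have : x = (x * a⁻¹) * a := by group
  rw [this]
  exact Subgroup.mul_mem _ h2 ha

theorem sq_of_inverted {g y : P} (hy : g * y * g⁻¹ = y⁻¹) : y * y = 1 := by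
  by_contra hne
  obtain ⟨n, h1, h2⟩ := exists_pow_four h.pgroup hne
  have hc := center_of_four h hz h2
  have e : g * y ^ n * g⁻¹ = (y ^ n)⁻¹ := by
    have := conj_pow (a := g) (b := y) (i := n)
    rw [← this, hy, inv_pow]
  have hcc := (Subgroup.mem_center_iff.mp hc) g
  have e' : g * y ^ n * g⁻¹ = y ^ n := by
    rw [hcc, mul_inv_cancel_right]
  rw [e'] at e
  apply h1
  nth_rewrite 1 [e]
  exact inv_mul_cancel _

/-- the commutator -/
def cm (a b : P) : P := a * b * a⁻¹ * b⁻¹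

omit h hz in
theorem cm_inv (a b : P) : (cm a b)⁻¹ = cm b a := by
  unfold cm; group

theorem comm_sq {g a : P} (ha : (g * g) * a = a * (g * g)) : cm a g * cm a g = 1 := by
  apply sq_of_inverted h hz (g := g)
  rw [cm_inv]
  have e : (g * g) * a⁻¹ * (g * g)⁻¹ = a⁻¹ := by
    have : (g * g) * a⁻¹ = a⁻¹ * (g * g) := by
      rw [eq_inv_mul_iff_mul_eq, ← mul_assoc, ← ha, mul_assoc, mul_inv_cancel, mul_one]
    rw [this, mul_inv_cancel_right]
  calc g * cm a g * g⁻¹ = g * a * g⁻¹ * ((g * g) * a⁻¹ * (g * g)⁻¹) := by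
        unfold cm; group
    _ = cm g a := by rw [e]; rfl

end Main

/-- abelian normal `K`-invariant subgroups containing the centre -/
structure Good (K : Subgroup (MulAut P)) (A : Subgroup P) : Prop where
  comm : ∀ a ∈ A, ∀ b ∈ A, a * b = b * a
  normal : ∀ a ∈ A, ∀ x : P, x * a * x⁻¹ ∈ A
  inv : ∀ k ∈ K, ∀ a ∈ A, k a ∈ A
  center_le : Subgroup.center P ≤ A

theorem good_center (_h : Ctx K) : Good K (Subgroup.center P) where
  comm := by
    intro a ha b _
    exact ((Subgroup.mem_center_iff.mp ha) b).symm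
  normal := by
    intro a ha x
    rw [(Subgroup.mem_center_iff.mp ha) x, mul_inv_cancel_right]
    exact ha
  inv := fun _ _ _ ha => Ctx.aut_center ha
  center_le := le_refl _

/-- equal kernels and comparable ranges force equal ranges -/
theorem range_eq_of_ker_eq {A : Type*} [Group A] [Finite A] (f g : A →* A) (hk : f.ker = g.ker)
    (hle : f.range ≤ g.range) : f.range = g.range := by
  apply Subgroup.eq_of_le_of_card_ge hle
  rw [← Subgroup.index_ker, ← Subgroup.index_ker, hk]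

theorem ker_eq_range {A : Type*} [Group A] [Finite A] (p s : A →* A) (h1 : s.range ≤ p.ker)
    (h2 : p.range = s.ker) : p.ker = s.range := by
  symm
  apply Subgroup.eq_of_le_of_card_ge h1
  have e1 := Subgroup.card_mul_index p.ker
  have e2 := Subgroup.card_mul_index s.ker
  rw [Subgroup.index_ker] at e1 e2
  rw [h2] at e1
  have hpos : 0 < Nat.card s.ker := Nat.card_pos
  rw [mul_comm] at e1
  have := Nat.eq_of_mul_eq_mul_left hpos (e1.trans e2.symm)
  exact this.le

section Good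

variable (h : Ctx K) (hz : ∃ z ∈ Subgroup.center P, z * z ≠ 1) {A : Subgroup P} (hA : Good K A)

include h hz hA

/-- Surjectivity of `b ↦ b * b^g` onto the squares of `A`, when `g² ∈ A`. -/
theorem L_surj {g : P} (hg : g * g ∈ A) {a : P} (ha : a ∈ A) :
    ∃ b ∈ A, b * (g⁻¹ * b * g) = a * a := by
  haveI := h.finite
  have comm : ∀ x y : A, x * y = y * x := fun x y => Subtype.ext (hA.comm _ x.2 _ y.2)
  letI iA : CommGroup A := { (inferInstance : Group A) with mul_comm := comm }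
  have hconj : ∀ b ∈ A, g⁻¹ * b * g ∈ A := by
    intro b hb
    have := hA.normal b hb g⁻¹
    rwa [inv_inv] at this
  -- commutator fact
  have hω : ∀ b ∈ A, (b⁻¹ * (g⁻¹ * b * g)) * (b⁻¹ * (g⁻¹ * b * g)) = 1 := by
    intro b hb
    have hc : (g⁻¹ * g⁻¹) * b⁻¹ = b⁻¹ * (g⁻¹ * g⁻¹) := by
      have e : g⁻¹ * g⁻¹ = (g * g)⁻¹ := by group
      rw [e]
      have := hA.comm _ (A.inv_mem hg) _ (A.inv_mem hb)
      exact this
    have := comm_sq h hz hc
    have e : cm b⁻¹ g⁻¹ = b⁻¹ * (g⁻¹ * b * g) := by unfold cm; group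
    rwa [e] at this
  let f : A →* A :=
    { toFun := fun b => ⟨(b : P) * (g⁻¹ * b * g), A.mul_mem b.2 (hconj _ b.2)⟩
      map_one' := by apply Subtype.ext; simp
      map_mul' := by
        intro x y
        apply Subtype.ext
        show ((x : P) * y) * (g⁻¹ * (x * y) * g) = ((x : P) * (g⁻¹ * x * g)) * (y * (g⁻¹ * y * g))
        have e := hA.comm _ (hconj _ x.2) _ y.2
        calc ((x : P) * y) * (g⁻¹ * (x * y) * g)
            = x * y * ((g⁻¹ * x * g) * (g⁻¹ * y * g)) := by group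
          _ = x * (y * (g⁻¹ * x * g)) * (g⁻¹ * y * g) := by group
          _ = x * ((g⁻¹ * x * g) * y) * (g⁻¹ * y * g) := by rw [← e]
          _ = _ := by group }
  let s : A →* A := powMonoidHom 2
  have hs : ∀ b : A, ((s b : A) : P) = (b : P) * b := by
    intro b
    show ((b ^ 2 : A) : P) = _
    rw [Subgroup.coe_pow, pow_two]
  have hf : ∀ b : A, ((f b : A) : P) = (b : P) * (g⁻¹ * b * g) := fun _ => rfl
  have hker : f.ker = s.ker := by
    ext b
    rw [MonoidHom.mem_ker, MonoidHom.mem_ker]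
    constructor
    · intro e
      have e1 : (b : P) * (g⁻¹ * b * g) = 1 := by
        have := congrArg Subtype.val e
        rwa [hf] at this
      -- b * b = ω⁻¹
      have hb := hω b b.2
      have e2 : (g⁻¹ * b * g : P) = (b : P)⁻¹ := eq_inv_of_mul_eq_one_right e1
      rw [e2] at hb
      have e3 : (b : P)⁻¹ * (b : P)⁻¹ * ((b : P)⁻¹ * (b : P)⁻¹) = 1 := hb
      have e4 : ((b : P) * b) * ((b : P) * b) = 1 := by
        have : ((b : P) * b) * ((b : P) * b) = ((b : P)⁻¹ * (b : P)⁻¹ * ((b : P)⁻¹ * (b : P)⁻¹))⁻¹ := by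
          simp only [mul_inv_rev, inv_inv, mul_assoc]
        rw [this, e3, inv_one]
      have hcen := center_of_four h hz e4
      have e5 : (g⁻¹ * b * g : P) = b := by
        rw [(Subgroup.mem_center_iff.mp hcen) g⁻¹, inv_mul_cancel_right]
      rw [e5] at e1
      apply Subtype.ext
      rw [hs]
      exact e1
    · intro e
      have e1 : (b : P) * b = 1 := by
        have := congrArg Subtype.val e
        rwa [hs] at this
      have hcen := h.invol_center e1
      have e5 : (g⁻¹ * b * g : P) = b := by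
        rw [(Subgroup.mem_center_iff.mp hcen) g⁻¹, inv_mul_cancel_right]
      apply Subtype.ext
      rw [hf, e5]
      exact e1
  have hle : f.range ≤ s.range := by
    rintro _ ⟨b, rfl⟩
    obtain ⟨c, hc, hcc⟩ := sq_surj h hz (hω b b.2)
    refine ⟨⟨(b : P) * c, A.mul_mem b.2 (hA.center_le hc)⟩, ?_⟩
    apply Subtype.ext
    rw [hs, hf]
    show ((b : P) * c) * ((b : P) * c) = _
    have hc' := (Subgroup.mem_center_iff.mp hc) (b : P)
    calc ((b : P) * c) * ((b : P) * c) = b * (c * b) * c := by group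
      _ = b * (b * c) * c := by rw [← hc']
      _ = b * b * (c * c) := by group
      _ = _ := by rw [hcc]; group
  have hr := range_eq_of_ker_eq f s hker hle
  have hmem : s ⟨a, ha⟩ ∈ f.range := by rw [hr]; exact ⟨_, rfl⟩
  obtain ⟨b, hb⟩ := hmem
  refine ⟨b, b.2, ?_⟩
  have := congrArg Subtype.val hb
  rw [hs, hf] at this
  exact this

/-- (★4) `g² ∈ ℧(A)` implies `g ∈ A`. -/
theorem mem_of_sq_eq {g a : P} (ha : a ∈ A) (e : g * g = a * a) : g ∈ A := by
  have hg : g * g ∈ A := by rw [e]; exact A.mul_mem ha ha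
  obtain ⟨b, hb, hbb⟩ := L_surj h hz hA hg (A.inv_mem ha)
  have hconj : g⁻¹ * b * g ∈ A := by
    have := hA.normal b hb g⁻¹
    rwa [inv_inv] at this
  have h1 : (g * b) * (g * b) = 1 := by
    calc (g * b) * (g * b) = (g * g) * ((g⁻¹ * b * g) * b) := by group
      _ = (g * g) * (b * (g⁻¹ * b * g)) := by rw [hA.comm _ hconj _ hb]
      _ = (a * a) * (a⁻¹ * a⁻¹) := by rw [e, hbb]
      _ = 1 := by group
  have h2 := hA.center_le (h.invol_center h1)
  have : g = (g * b) * b⁻¹ := by group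
  rw [this]
  exact A.mul_mem h2 (A.inv_mem hb)

omit hz in
theorem comm_pow {a b : P} (ha : a ∈ A) (hb : b ∈ A) (e : ℕ) : (a * b) ^ e = a ^ e * b ^ e := by
  have : Commute a b := hA.comm _ ha _ hb
  exact this.mul_pow e

/-- existence of the "top power" map of `A`. -/
theorem exists_exp : ∃ e : ℕ, (∀ a ∈ A, a ^ e * a ^ e = 1) ∧ (∀ w : P, w * w = 1 → ∃ a ∈ A, a ^ e = w) ∧
    (∀ a ∈ A, a ^ e = 1 → ∃ b ∈ A, a = b * b) ∧ (e = 2 ∨ 4 ∣ e) := by
  classical
  haveI := h.finite
  have hex : ∃ m : ℕ, ∀ a ∈ A, a ^ (2 ^ m) = 1 := by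
    obtain ⟨n, hn⟩ := IsPGroup.iff_card.mp h.pgroup
    refine ⟨n, fun a _ => ?_⟩
    rw [← hn]
    exact pow_card_eq_one'
  let m := Nat.find hex
  have hm : ∀ a ∈ A, a ^ (2 ^ m) = 1 := Nat.find_spec hex
  obtain ⟨z, hzc, hz1⟩ := hz
  have hm2 : 2 ≤ m := by
    by_contra hlt
    have hm' : m ≤ 1 := by omega
    have : z ^ (2 ^ 1) = 1 := by
      have h1 := hm z (hA.center_le hzc)
      obtain ⟨d, hd⟩ := Nat.exists_eq_add_of_le hm'
      rw [hd, pow_add, pow_mul, h1, one_pow]
    apply hz1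
    rw [← pow_two]
    exact this
  obtain ⟨l, hl⟩ := Nat.exists_eq_add_of_le hm2
  have hl' : m = (l + 1) + 1 := by omega
  have hsq : ∀ a ∈ A, a ^ (2 ^ (l + 1)) * a ^ (2 ^ (l + 1)) = 1 := by
    intro a ha
    rw [← pow_add, ← two_mul, ← pow_succ', ← hl']
    exact hm a ha
  have hmin : ∃ a₀ ∈ A, a₀ ^ (2 ^ (l + 1)) ≠ 1 := by
    by_contra hno
    push Not at hno
    have : m ≤ l + 1 := Nat.find_min' hex hno
    omega
  obtain ⟨a₀, ha₀, ha₀1⟩ := hmin
  have hsurj : ∀ w : P, w * w = 1 → ∃ a ∈ A, a ^ (2 ^ (l + 1)) = w := by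
    intro w hw
    by_cases hw1 : w = 1
    · exact ⟨1, A.one_mem, by rw [hw1, one_pow]⟩
    obtain ⟨k, hk, hkk⟩ := h.exists_k ha₀1 (hsq a₀ ha₀) hw1 hw
    exact ⟨k a₀, hA.inv k hk a₀ ha₀, by rw [← map_pow, hkk]⟩
  refine ⟨2 ^ (l + 1), hsq, hsurj, ?_, ?_⟩
  · -- counting
    have comm : ∀ x y : A, x * y = y * x := fun x y => Subtype.ext (hA.comm _ x.2 _ y.2)
    letI iA : CommGroup A := { (inferInstance : Group A) with mul_comm := comm }
    let p : A →* A := powMonoidHom (2 ^ (l + 1))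
    let s : A →* A := powMonoidHom 2
    have hp : ∀ b : A, ((p b : A) : P) = (b : P) ^ (2 ^ (l + 1)) := by
      intro b
      show ((b ^ (2 ^ (l + 1)) : A) : P) = _
      rw [Subgroup.coe_pow]
    have hs : ∀ b : A, ((s b : A) : P) = (b : P) * b := by
      intro b
      show ((b ^ 2 : A) : P) = _
      rw [Subgroup.coe_pow, pow_two]
    have h1 : s.range ≤ p.ker := by
      rintro _ ⟨b, rfl⟩
      rw [MonoidHom.mem_ker]
      apply Subtype.ext
      rw [hp, hs]
      have : Commute (b : P) b := Commute.refl _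
      rw [this.mul_pow, hsq _ b.2]
      rfl
    have h2 : p.range = s.ker := by
      apply le_antisymm
      · rintro _ ⟨b, rfl⟩
        rw [MonoidHom.mem_ker]
        apply Subtype.ext
        rw [hs, hp]
        exact hsq _ b.2
      · intro b hb
        rw [MonoidHom.mem_ker] at hb
        have e1 : (b : P) * b = 1 := by
          have := congrArg Subtype.val hb
          rwa [hs] at this
        obtain ⟨a, ha, haa⟩ := hsurj _ e1
        refine ⟨⟨a, ha⟩, ?_⟩
        apply Subtype.ext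
        rw [hp]
        exact haa
    have hker := ker_eq_range p s h1 h2
    intro a ha hae
    have hmem : (⟨a, ha⟩ : A) ∈ p.ker := by
      rw [MonoidHom.mem_ker]
      apply Subtype.ext
      rw [hp]
      exact hae
    rw [hker] at hmem
    obtain ⟨b, hb⟩ := hmem
    refine ⟨b, b.2, ?_⟩
    have := congrArg Subtype.val hb
    rw [hs] at this
    exact this.symm
  · cases l with
    | zero => left; norm_num
    | succ n =>
      right
      exact ⟨2 ^ n, by rw [pow_succ, pow_succ]; ring⟩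

end Good

/-- the preimage of the involutions of `Z(P/A)` -/
def NN {A : Subgroup P} (hA : Good K A) : Subgroup P where
  carrier := {g | g * g ∈ A ∧ ∀ x : P, x * g * x⁻¹ * g⁻¹ ∈ A}
  one_mem' := by
    refine ⟨by simp [A.one_mem], fun x => by simp [A.one_mem]⟩
  mul_mem' := by
    rintro g g' ⟨h1, h2⟩ ⟨h3, h4⟩
    constructor
    · have e : (g * g') * (g * g') = (g * g) * ((g⁻¹ * g' * g⁻¹⁻¹ * g'⁻¹) * (g' * g')) := by group
      rw [e]
      exact A.mul_mem h1 (A.mul_mem (h4 g⁻¹) h3)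
    · intro x
      have e : x * (g * g') * x⁻¹ * (g * g')⁻¹ =
          (x * g * x⁻¹ * g⁻¹) * (g * (x * g' * x⁻¹ * g'⁻¹) * g⁻¹) := by group
      rw [e]
      exact A.mul_mem (h2 x) (hA.normal _ (h4 x) g)
  inv_mem' := by
    rintro g ⟨h1, h2⟩
    constructor
    · have e : g⁻¹ * g⁻¹ = (g * g)⁻¹ := by group
      rw [e]
      exact A.inv_mem h1
    · intro x
      have e : x * g⁻¹ * x⁻¹ * g⁻¹⁻¹ = g⁻¹ * (x * g * x⁻¹ * g⁻¹)⁻¹ * g⁻¹⁻¹ := by group
      rw [e]
      exact hA.normal _ (A.inv_mem (h2 x)) _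

theorem mem_NN {A : Subgroup P} (hA : Good K A) {g : P} :
    g ∈ NN hA ↔ g * g ∈ A ∧ ∀ x : P, x * g * x⁻¹ * g⁻¹ ∈ A := Iff.rfl

theorem le_NN {A : Subgroup P} (hA : Good K A) : A ≤ NN hA := by
  intro a ha
  refine ⟨A.mul_mem ha ha, fun x => A.mul_mem (hA.normal a ha x) (A.inv_mem ha)⟩

theorem exists_NN (h : Ctx K) {A : Subgroup P} (hA : Good K A) (hne : A ≠ ⊤) :
    ∃ g ∈ NN hA, g ∉ A := by
  haveI := h.finite
  haveI iN : A.Normal := ⟨hA.normal⟩
  have hpq : IsPGroup 2 (P ⧸ A) := h.pgroup.to_quotient A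
  obtain ⟨x, hx⟩ : ∃ x, x ∉ A := by
    by_contra hno
    push Not at hno
    exact hne (eq_top_iff.mpr fun x _ => hno x)
  have hx' : (x : P ⧸ A) ≠ 1 := by
    rwa [Ne, QuotientGroup.eq_one_iff]
  haveI : Nontrivial (P ⧸ A) := ⟨⟨_, _, hx'⟩⟩
  haveI := hpq.center_nontrivial
  obtain ⟨z, hz⟩ := exists_ne (1 : Subgroup.center (P ⧸ A))
  have hz' : (z : P ⧸ A) ≠ 1 := fun e => hz (Subtype.ext e)
  obtain ⟨n, h1, h2⟩ := exists_pow_invol hpq hz'
  have hzc : (z : P ⧸ A) ^ n ∈ Subgroup.center (P ⧸ A) := Subgroup.pow_mem _ z.2 n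
  obtain ⟨g, hg⟩ := QuotientGroup.mk_surjective ((z : P ⧸ A) ^ n)
  refine ⟨g, ⟨?_, ?_⟩, ?_⟩
  · rw [← QuotientGroup.eq_one_iff, QuotientGroup.mk_mul, hg, h2]
  · intro y
    rw [← QuotientGroup.eq_one_iff]
    simp only [QuotientGroup.mk_mul, QuotientGroup.mk_inv, hg]
    have := (Subgroup.mem_center_iff.mp hzc) (y : P ⧸ A)
    rw [this]
    group
  · rw [← QuotientGroup.eq_one_iff, hg]
    exact h1

theorem NN_aut (_h : Ctx K) {A : Subgroup P} (hA : Good K A) {k : MulAut P} (hk : k ∈ K) {g : P}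
    (hg : g ∈ NN hA) : k g ∈ NN hA := by
  obtain ⟨h1, h2⟩ := hg
  refine ⟨?_, fun x => ?_⟩
  · rw [← map_mul]; exact hA.inv k hk _ h1
  · have := hA.inv k hk _ (h2 (k⁻¹ x))
    simpa using this

theorem step (h : Ctx K) (hz : ∃ z ∈ Subgroup.center P, z * z ≠ 1) {A : Subgroup P}
    (hA : Good K A) (hne : A ≠ ⊤) : ∃ B, Good K B ∧ A < B := by
  have hN1 : ∀ g ∈ NN hA, g * g ∈ A := fun g hg => hg.1
  have hN2 : ∀ g ∈ NN hA, ∀ x, cm x g ∈ A := fun g hg x => hg.2 x
  have hAN := le_NN hA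
  set N := NN hA with hN
  have hinv : ∀ a ∈ A, ∀ g ∈ N, cm a g * cm a g = 1 := by
    intro a ha g hg
    exact comm_sq h hz (hA.comm _ (hN1 g hg) _ ha)
  have hinv' : ∀ a ∈ A, ∀ g ∈ N, cm g a * cm g a = 1 := by
    intro a ha g hg
    rw [← cm_inv, ← mul_inv_rev, hinv a ha g hg, inv_one]
  have hcen : ∀ x : P, x * x = 1 → ∀ y, y * x = x * y := fun x hx =>
    Subgroup.mem_center_iff.mp (h.invol_center hx)
  have hfour : ∀ g ∈ N, ∀ l ∈ N, (cm g l * cm g l) * (cm g l * cm g l) = 1 := by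
    intro g hg l hl
    have hy : cm g l ∈ A := hN2 l hl g
    set y := cm g l with hydef
    have hω := hinv y hy g hg
    have hW := hinv (g * g) (hN1 g hg) l hl
    have e1 : cm (g * g) l = g * y * g⁻¹ * y := by
      rw [hydef]; unfold cm; group
    have e2 : g * y * g⁻¹ = (cm y g)⁻¹ * y := by
      rw [cm_inv]; unfold cm; group
    set ω := cm y g with hωdef
    set W := cm (g * g) l with hWdef
    have hωinv : ω⁻¹ = ω := inv_eq_of_mul_eq_one_left hω
    have e3 : y * y = ω * W := by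
      rw [e1, e2, hωinv]
      calc y * y = (ω * ω) * y * y := by rw [hω, one_mul]
        _ = ω * (ω * y * y) := by group
    rw [e3]
    have := hcen W hW ω
    calc ω * W * (ω * W) = ω * (W * ω) * W := by group
      _ = ω * (ω * W) * W := by rw [this]
      _ = (ω * ω) * (W * W) := by group
      _ = 1 := by rw [hω, hW, one_mul]
  have hcmc : ∀ g ∈ N, ∀ l ∈ N, cm g l ∈ Subgroup.center P := fun g hg l hl =>
    center_of_four h hz (hfour g hg l hl)
  have hcmc' : ∀ g ∈ N, ∀ l ∈ N, ∀ x, x * cm g l = cm g l * x := fun g hg l hl =>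
    Subgroup.mem_center_iff.mp (hcmc g hg l hl)
  have hsq : ∀ g ∈ N, ∀ l ∈ N, cm (g * g) l = cm g l * cm g l := by
    intro g hg l hl
    have e1 : cm (g * g) l = g * cm g l * g⁻¹ * cm g l := by
      unfold cm; group
    rw [e1, hcmc' g hg l hl g, mul_inv_cancel_right]
  have hadd_l : ∀ g ∈ N, ∀ g' ∈ N, ∀ l ∈ N, cm (g * g') l = cm g l * cm g' l := by
    intro g hg g' hg' l hl
    have e1 : cm (g * g') l = g * cm g' l * g⁻¹ * cm g l := by
      unfold cm; group
    rw [e1, hcmc' g' hg' l hl g, mul_inv_cancel_right, ← hcmc' g' hg' l hl]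
  have hadd_r : ∀ g ∈ N, ∀ l ∈ N, ∀ l' ∈ N, cm g (l * l') = cm g l * cm g l' := by
    intro g hg l hl l' hl'
    have e1 : cm g (l * l') = cm g l * (l * cm g l' * l⁻¹) := by
      unfold cm; group
    rw [e1, hcmc' g hg l' hl' l, mul_inv_cancel_right]
  have hsq_mul : ∀ g ∈ N, ∀ l ∈ N, (g * l) * (g * l) = cm l g * ((g * g) * (l * l)) := by
    intro g hg l hl
    have e1 : (g * l) * (g * l) = g * cm l g * (g * l * l) := by
      unfold cm; group
    rw [e1, hcmc' l hl g hg g]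
    group
  obtain ⟨e, E1, E2, E3, E4⟩ := exists_exp h hz hA
  let π : P → P := fun g => (g * g) ^ e
  have hπdef : ∀ g, π g = (g * g) ^ e := fun _ => rfl
  have hcmpow : ∀ g ∈ N, ∀ l ∈ N, (cm g l) ^ e = 1 := by
    intro g hg l hl
    have hf := hfour g hg l hl
    rcases E4 with e2 | ⟨d, hd⟩
    · rw [e2, pow_two]
      rw [← hsq g hg l hl]
      have hgc : g * g ∈ Subgroup.center P := by
        apply center_of_four h hz
        have := E1 _ (hN1 g hg)
        rwa [e2, pow_two] at this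
      have := Subgroup.mem_center_iff.mp hgc l
      unfold cm
      rw [← this]
      group
    · have : (cm g l) ^ 4 = 1 := by
        calc (cm g l) ^ 4 = cm g l * cm g l * (cm g l * cm g l) := by
              simp only [pow_succ, pow_zero, one_mul, mul_assoc]
          _ = 1 := hf
      rw [hd, pow_mul, this, one_pow]
  have hπmul : ∀ g ∈ N, ∀ l ∈ N, π (g * l) = π g * π l := by
    intro g hg l hl
    rw [hπdef, hπdef, hπdef, hsq_mul g hg l hl]
    have hy : cm l g ∈ A := hN2 g hg l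
    rw [comm_pow h hA hy (A.mul_mem (hN1 g hg) (hN1 l hl)),
      comm_pow h hA (hN1 g hg) (hN1 l hl), hcmpow l hl g hg, one_mul]
  have hπom : ∀ g ∈ N, π g * π g = 1 := fun g hg => E1 _ (hN1 g hg)
  have hπone : ∀ g ∈ N, π g = 1 → g ∈ A := by
    intro g hg hg1
    obtain ⟨b, hb, hbb⟩ := E3 _ (hN1 g hg) hg1
    exact mem_of_sq_eq h hz hA hb hbb
  have hπA : ∀ a ∈ A, π a = 1 := by
    intro a ha
    rw [hπdef, comm_pow h hA ha ha]
    exact E1 a ha
  obtain ⟨g₀, hg₀, hg₀A⟩ := exists_NN h hA hne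
  have hπinv : ∀ k ∈ K, ∀ g ∈ N, k g ∈ N ∧ π (k g) = k (π g) := by
    intro k hk g hg
    refine ⟨NN_aut h hA hk hg, ?_⟩
    rw [hπdef, hπdef, map_pow, map_mul]
  have hπsurj : ∀ w : P, w * w = 1 → ∃ g ∈ N, π g = w := by
    intro w hw
    by_cases hw1 : w = 1
    · exact ⟨1, N.one_mem, by rw [hw1, hπdef]; simp⟩
    have hne1 : π g₀ ≠ 1 := fun e => hg₀A (hπone _ hg₀ e)
    obtain ⟨k, hk, hkk⟩ := h.exists_k hne1 (hπom _ hg₀) hw1 hw
    exact ⟨k g₀, (hπinv k hk _ hg₀).1, by rw [(hπinv k hk _ hg₀).2, hkk]⟩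
  have hdiff : ∀ g ∈ N, ∀ g' ∈ N, π g = π g' → g⁻¹ * g' ∈ A := by
    intro g hg g' hg' e0
    apply hπone _ (N.mul_mem (N.inv_mem hg) hg')
    rw [hπmul _ (N.inv_mem hg) _ hg', ← e0, ← hπmul _ (N.inv_mem hg) _ hg, inv_mul_cancel, hπdef]
    simp
  -- first application of Hua's lemma
  have hy2 : ∀ g ∈ N, ∀ l ∈ N, cm g l * cm g l = 1 := by
    have wd_l : ∀ g ∈ N, ∀ a ∈ A, ∀ l ∈ N, cm (g * a) l * cm (g * a) l = cm g l * cm g l := by
      intro g hg a ha l hl
      rw [hadd_l g hg a (hAN ha) l hl]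
      have e1 := hinv a ha l hl
      have e2 := hcmc' a (hAN ha) l hl (cm g l)
      calc cm g l * cm a l * (cm g l * cm a l) = cm g l * (cm a l * cm g l) * cm a l := by group
        _ = cm g l * (cm g l * cm a l) * cm a l := by rw [← e2]
        _ = (cm g l * cm g l) * (cm a l * cm a l) := by group
        _ = _ := by rw [e1, mul_one]
    have wd_r : ∀ g ∈ N, ∀ l ∈ N, ∀ a ∈ A, cm g (l * a) * cm g (l * a) = cm g l * cm g l := by
      intro g hg l hl a ha
      rw [hadd_r g hg l hl a (hAN ha)]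
      have e1 := hinv' a ha g hg
      have e2 := hcmc' g hg a (hAN ha) (cm g l)
      calc cm g l * cm g a * (cm g l * cm g a) = cm g l * (cm g a * cm g l) * cm g a := by group
        _ = cm g l * (cm g l * cm g a) * cm g a := by rw [← e2]
        _ = (cm g l * cm g l) * (cm g a * cm g a) := by group
        _ = _ := by rw [e1, mul_one]
    apply hua_lift h π hπom hπsurj hπmul hπinv (fun g l => cm g l * cm g l)
    · exact hfour
    · intro g hg g' hg' l hl l' hl' e1 e2
      have ha := hdiff g hg g' hg' e1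
      have hb := hdiff l hl l' hl' e2
      have eg : g' = g * (g⁻¹ * g') := by group
      have el : l' = l * (l⁻¹ * l') := by group
      show cm g l * cm g l = cm g' l' * cm g' l'
      rw [eg, el, wd_l g hg _ ha _ (N.mul_mem hl (hAN hb)), wd_r g hg l hl _ hb]
    · intro g hg g' hg' l hl
      show cm (g * g') l * cm (g * g') l = (cm g l * cm g l) * (cm g' l * cm g' l)
      rw [hadd_l g hg g' hg' l hl]
      have e2 := hcmc' g' hg' l hl (cm g l)
      calc cm g l * cm g' l * (cm g l * cm g' l) = cm g l * (cm g' l * cm g l) * cm g' l := by group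
        _ = cm g l * (cm g l * cm g' l) * cm g' l := by rw [← e2]
        _ = _ := by group
    · intro g hg l hl l' hl'
      show cm g (l * l') * cm g (l * l') = (cm g l * cm g l) * (cm g l' * cm g l')
      rw [hadd_r g hg l hl l' hl']
      have e2 := hcmc' g hg l' hl' (cm g l)
      calc cm g l * cm g l' * (cm g l * cm g l') = cm g l * (cm g l' * cm g l) * cm g l' := by group
        _ = cm g l * (cm g l * cm g l') * cm g l' := by rw [← e2]
        _ = _ := by group
    · intro g _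
      show cm g g * cm g g = 1
      unfold cm; group
    · intro k _ g _ l _
      show cm (k g) (k l) * cm (k g) (k l) = k (cm g l * cm g l)
      unfold cm
      simp only [map_mul, map_inv]
  -- `A` is central in `N`
  have hAc : ∀ a ∈ A, ∀ l ∈ N, cm a l = 1 := by
    intro a ha l hl
    obtain ⟨g, hg, hge⟩ := hπsurj (a ^ e) (E1 a ha)
    have e1 : (a * (g * g)⁻¹) ^ e = 1 := by
      rw [comm_pow h hA ha (A.inv_mem (hN1 g hg)), inv_pow]
      have : (g * g) ^ e = a ^ e := hge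
      rw [this, mul_inv_cancel]
    obtain ⟨b, hb, hbb⟩ := E3 _ (A.mul_mem ha (A.inv_mem (hN1 g hg))) e1
    have e2 : a = (b * b) * (g * g) := by
      rw [← hbb]; group
    rw [e2, hadd_l _ (hAN (A.mul_mem hb hb)) _ (N.mul_mem hg hg) l hl, hsq b (hAN hb) l hl,
      hsq g hg l hl, hy2 b (hAN hb) l hl, hy2 g hg l hl, one_mul]
  have hNc : ∀ g ∈ N, ∀ l ∈ N, cm g l = 1 := by
    apply hua_lift h π hπom hπsurj hπmul hπinv cm
    · exact hy2
    · intro g hg g' hg' l hl l' hl' e1 e2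
      have ha := hdiff g hg g' hg' e1
      have hb := hdiff l hl l' hl' e2
      have eg : g' = g * (g⁻¹ * g') := by group
      have el : l' = l * (l⁻¹ * l') := by group
      rw [eg, el, hadd_l g hg _ (hAN ha) _ (N.mul_mem hl (hAN hb)), hAc _ ha _ (N.mul_mem hl (hAN hb)),
        mul_one, hadd_r g hg l hl _ (hAN hb)]
      have : cm g (l⁻¹ * l') = 1 := by
        rw [← cm_inv, hAc _ hb g hg, inv_one]
      rw [this, mul_one]
    · exact hadd_l
    · exact hadd_r
    · intro g _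
      unfold cm; group
    · intro k _ g _ l _
      unfold cm
      simp only [map_mul, map_inv]
  refine ⟨N, ⟨?_, ?_, ?_, ?_⟩, ?_⟩
  · intro a ha b hb
    have := hNc a ha b hb
    unfold cm at this
    have e1 : a * b * a⁻¹ = b := mul_inv_eq_one.mp this
    exact mul_inv_eq_iff_eq_mul.mp e1
  · intro a ha x
    have e1 : x * a * x⁻¹ = (x * a * x⁻¹ * a⁻¹) * a := by group
    rw [e1]
    exact N.mul_mem (hAN ((hN2 a ha x))) ha
  · intro k hk a ha
    exact NN_aut h hA hk ha
  · exact le_trans hA.center_le hAN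
  · refine lt_of_le_of_ne hAN ?_
    intro e2
    exact hg₀A (by rw [e2]; exact hg₀)

theorem abelian_of_exists (h : Ctx K) (hz : ∃ z ∈ Subgroup.center P, z * z ≠ 1) (x y : P) :
    x * y = y * x := by
  haveI := h.finite
  obtain ⟨A, -, hA⟩ := Finite.exists_le_maximal (good_center h)
  by_cases hne : A = ⊤
  · have := hA.prop
    rw [hne] at this
    exact this.comm x (Subgroup.mem_top _) y (Subgroup.mem_top _)
  · obtain ⟨B, hB, hlt⟩ := step h hz hA.prop hne
    exact absurd (hA.le_of_ge hB hlt.le) (not_le_of_gt hlt)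

theorem center_sq (h : Ctx K) (hnc : ∃ x y : P, x * y ≠ y * x) {z : P}
    (hz : z ∈ Subgroup.center P) : z * z = 1 := by
  by_contra hne
  obtain ⟨x, y, hxy⟩ := hnc
  exact hxy (abelian_of_exists h ⟨z, hz, hne⟩ x y)

end Cfsg.Agent.Lib.SuzukiTwo.Central
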