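import Mathlib
import Cfsg.Prelude.Def_LieRecognition
import Cfsg.Agent.Lib.SuzukiTwo.Central

set_option autoImplicit false
set_option linter.style.haveILetI false

/-! The quotient `P / Z(P)` of a Suzuki 2-group with `|P| = |Z(P)|²`. -/

namespace Cfsg.Agent.Lib.SuzukiTwo.Quot

open Cfsg.Agent.Lib.SuzukiTwo.Basic

variable {P : Type*} [Group P] {K : Subgroup (MulAut P)}

/-- the action on the central quotient -/
def actQ (k : MulAut P) : P ⧸ Subgroup.center P →* P ⧸ Subgroup.center P :=
  QuotientGroup.map _ _ k.toMonoidHom (fun _ hz => Ctx.aut_center hz)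

theorem actQ_mk (k : MulAut P) (p : P) : actQ k (p : P ⧸ Subgroup.center P) = (k p : P) := rfl

theorem actQ_one (v : P ⧸ Subgroup.center P) : actQ 1 v = v := by
  obtain ⟨p, rfl⟩ := QuotientGroup.mk_surjective v
  rfl

theorem actQ_mul (k l : MulAut P) (v : P ⧸ Subgroup.center P) : actQ (k * l) v = actQ k (actQ l v) := by
  obtain ⟨p, rfl⟩ := QuotientGroup.mk_surjective v
  rfl

section

variable (h : Ctx K) (hZ : ∀ z ∈ Subgroup.center P, z * z = 1)

include h hZ

theorem eq_one_of_fixQ {k : MulAut P} (hk : k ∈ K) {p : P} (hp : p ∉ Subgroup.center P)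
    (hfix : actQ k (p : P ⧸ Subgroup.center P) = p) : k = 1 := by
  haveI := h.finite
  by_contra hk1
  have hcc : ∀ z ∈ Subgroup.center P, ∀ g : P, g * z = z * g := fun z hz =>
    Subgroup.mem_center_iff.mp hz
  -- `z = p⁻¹ * k p` is central
  have hz : p⁻¹ * k p ∈ Subgroup.center P := by
    rw [actQ_mk] at hfix
    exact QuotientGroup.eq.mp hfix.symm
  set z := p⁻¹ * k p with hzdef
  -- the map `w ↦ w⁻¹ * k w` on the centre
  let g : Subgroup.center P → Subgroup.center P := fun w =>
    ⟨(w : P)⁻¹ * k w, Subgroup.mul_mem _ (Subgroup.inv_mem _ w.2) (Ctx.aut_center w.2)⟩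
  have hg : Function.Injective g := by
    intro w w' e
    have e1 : (w : P)⁻¹ * k w = (w' : P)⁻¹ * k w' := congrArg Subtype.val e
    have hc1 := hcc _ w'.2 (k w)
    have e2 : k ((w' : P) * (w : P)⁻¹) = (w' : P) * (w : P)⁻¹ := by
      rw [map_mul, map_inv]
      have e3 : k w = w * ((w' : P)⁻¹ * k w') := by rw [← e1, mul_inv_cancel_left]
      have e4 : k w' = w' * ((w : P)⁻¹ * k w) := by rw [e1, mul_inv_cancel_left]
      have hc2 := hcc _ (Ctx.aut_center (k := k) w.2) (w' : P)
      calc k w' * (k w)⁻¹ = (w' * ((w : P)⁻¹ * k w)) * (k w)⁻¹ := by rw [← e4]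
        _ = w' * (w : P)⁻¹ := by group
    by_contra hne
    have hne' : (w' : P) * (w : P)⁻¹ ≠ 1 := by
      intro e5
      apply hne
      apply Subtype.ext
      exact (mul_inv_eq_one.mp e5).symm
    exact hk1 (h.eq_one_of_fix hk hne' e2)
  have hgs := Finite.injective_iff_surjective.mp hg
  obtain ⟨w, hw⟩ := hgs ⟨z⁻¹, Subgroup.inv_mem _ hz⟩
  have hw' : (w : P)⁻¹ * k w = z⁻¹ := congrArg Subtype.val hw
  have hfix' : k (p * w) = p * w := by
    rw [map_mul]
    have e1 : k p = p * z := by rw [hzdef, mul_inv_cancel_left]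
    have e2 : k w = w * z⁻¹ := by rw [← hw', mul_inv_cancel_left]
    rw [e1, e2]
    have := hcc _ w.2 z
    calc p * z * (w * z⁻¹) = p * (z * w) * z⁻¹ := by group
      _ = p * (w * z) * z⁻¹ := by rw [← this]
      _ = p * w := by group
  by_cases hpw : p * w = 1
  · apply hp
    have : p = (w : P)⁻¹ := eq_inv_of_mul_eq_one_left hpw
    rw [this]
    exact Subgroup.inv_mem _ w.2
  · exact hk1 (h.eq_one_of_fix hk hpw hfix')

omit hZ in
theorem om_eq (hZ : ∀ z ∈ Subgroup.center P, z * z = 1) : h.Om = Subgroup.center P := by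
  ext x
  exact ⟨fun hx => h.invol_center hx, fun hx => hZ x hx⟩

theorem card_K_add (_ : True) : Nat.card K + 1 = Nat.card (Subgroup.center P) := by
  have := h.card_K
  rw [om_eq h hZ] at this
  exact this

variable (hcard : Nat.card P = Nat.card (Subgroup.center P) ^ 2)

include hcard

omit h hZ in
theorem card_Q [Finite P] : Nat.card (P ⧸ Subgroup.center P) = Nat.card (Subgroup.center P) := by
  have e := Subgroup.card_eq_card_quotient_mul_card_subgroup (Subgroup.center P)
  rw [hcard, pow_two] at e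
  have hpos : 0 < Nat.card (Subgroup.center P) := Nat.card_pos
  exact (Nat.eq_of_mul_eq_mul_right hpos e).symm

theorem regQ (x y : P ⧸ Subgroup.center P) (hx : x ≠ 1) (hy : y ≠ 1) :
    ∃! k : K, actQ (k : MulAut P) x = y := by
  haveI := h.finite
  haveI := h.finite_K
  classical
  have hinv : ∀ k : K, actQ (k : MulAut P) x ≠ 1 := by
    intro k e
    apply hx
    have := congrArg (actQ ((k : MulAut P)⁻¹)) e
    rw [← actQ_mul, inv_mul_cancel, actQ_one, map_one] at this
    exact this
  obtain ⟨p, rfl⟩ := QuotientGroup.mk_surjective x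
  have hp : p ∉ Subgroup.center P := by
    intro hp
    exact hx ((QuotientGroup.eq_one_iff p).mpr hp)
  let f : K → {w : P ⧸ Subgroup.center P // w ≠ 1} := fun k =>
    ⟨actQ (k : MulAut P) (p : P ⧸ Subgroup.center P), hinv k⟩
  have hf : Function.Injective f := by
    intro k l e
    have e1 : actQ (k : MulAut P) (p : P ⧸ Subgroup.center P) = actQ (l : MulAut P) p :=
      congrArg Subtype.val e
    have e2 : actQ ((l : MulAut P)⁻¹ * (k : MulAut P)) (p : P ⧸ Subgroup.center P) = p := by
      rw [actQ_mul, e1, ← actQ_mul, inv_mul_cancel, actQ_one]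
    have e3 := eq_one_of_fixQ h hZ (K.mul_mem (K.inv_mem l.2) k.2) hp e2
    apply Subtype.ext
    exact (inv_mul_eq_one.mp e3).symm
  have hcardeq : Nat.card {w : P ⧸ Subgroup.center P // w ≠ 1} = Nat.card K := by
    haveI := Fintype.ofFinite (P ⧸ Subgroup.center P)
    rw [Nat.card_eq_fintype_card, Fintype.card_subtype_compl, ← Nat.card_eq_fintype_card]
    simp only [Fintype.card_unique]
    rw [card_Q hcard]
    have := card_K_add h hZ trivial
    omega
  have hb : Function.Bijective f := by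
    apply (Nat.bijective_iff_injective_and_card f).mpr
    exact ⟨hf, hcardeq.symm⟩
  obtain ⟨k, hk⟩ := hb.2 ⟨y, hy⟩
  refine ⟨k, congrArg Subtype.val hk, ?_⟩
  intro l hl
  apply hf
  apply Subtype.ext
  show actQ (l : MulAut P) (p : P ⧸ Subgroup.center P) = actQ (k : MulAut P) p
  rw [hl]
  exact (congrArg Subtype.val hk).symm

theorem sqQ (hne : Nontrivial (P ⧸ Subgroup.center P)) (v : P ⧸ Subgroup.center P) : v * v = 1 := by
  haveI := h.finite
  have hpq : IsPGroup 2 (P ⧸ Subgroup.center P) := h.pgroup.to_quotient _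
  haveI := hpq.center_nontrivial
  obtain ⟨z, hz⟩ := exists_ne (1 : Subgroup.center (P ⧸ Subgroup.center P))
  have hz' : (z : P ⧸ Subgroup.center P) ≠ 1 := fun e => hz (Subtype.ext e)
  obtain ⟨n, h1, h2⟩ := exists_pow_invol hpq hz'
  by_cases hv : v = 1
  · rw [hv, one_mul]
  obtain ⟨k, hk, -⟩ := regQ h hZ hcard _ v h1 hv
  rw [← hk, ← map_mul, h2, map_one]

end

end Cfsg.Agent.Lib.SuzukiTwo.Quot
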