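import Mathlib

set_option autoImplicit false
set_option linter.style.haveILetI false

/-! A quadratic map between elementary abelian 2-groups without non-trivial zeros: Chevalley–Warning
bounds the size of the domain by the square of the size of the target. -/

namespace Cfsg.Agent.Lib.SuzukiTwo.QuadBound

open MvPolynomial

section

variable {d : ℕ} (g : (Fin d → ZMod 2) → ZMod 2)
    (b : (Fin d → ZMod 2) → (Fin d → ZMod 2) → ZMod 2)
    (hg : ∀ x y, g (x + y) = g x + g y + b x y)
    (b_l : ∀ x x' y, b (x + x') y = b x y + b x' y)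
    (b_r : ∀ x y y', b x (y + y') = b x y + b x y')

theorem zmod2_cases (z : ZMod 2) : z = 0 ∨ z = 1 := by
  revert z
  decide

include b_r in
theorem b_zero_r (x) : b x 0 = 0 := by
  have := b_r x 0 0
  rw [add_zero] at this
  exact left_eq_add.mp this

include b_l in
theorem b_zero_l (y) : b 0 y = 0 := by
  have := b_l 0 0 y
  rw [add_zero] at this
  exact left_eq_add.mp this

include hg b_r in
theorem g_zero : g 0 = 0 := by
  have := hg 0 0
  rw [add_zero, b_zero_r b b_r, add_zero] at this
  exact left_eq_add.mp this

include hg in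
theorem b_symm (u v) : b u v = b v u := by
  have e1 := hg u v
  have e2 := hg v u
  rw [add_comm v u, e1, add_comm (g v) (g u)] at e2
  exact add_left_cancel e2

include hg b_r in
theorem g_smul (z : ZMod 2) (u) : g (z • u) = z * g u := by
  rcases zmod2_cases z with rfl | rfl
  · rw [zero_smul, zero_mul, g_zero g b hg b_r]
  · rw [one_smul, one_mul]

include b_r in
theorem b_smul_r (z : ZMod 2) (u v) : b u (z • v) = z * b u v := by
  rcases zmod2_cases z with rfl | rfl
  · rw [zero_smul, zero_mul, b_zero_r b b_r]
  · rw [one_smul, one_mul]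

include b_l in
theorem b_smul_l (z : ZMod 2) (u v) : b (z • u) v = z * b u v := by
  rcases zmod2_cases z with rfl | rfl
  · rw [zero_smul, zero_mul, b_zero_l b b_l]
  · rw [one_smul, one_mul]

include b_r in
theorem b_sum (u) (x : Fin d → ZMod 2) (s : Finset (Fin d)) :
    b u (∑ l ∈ s, x l • Pi.single l 1) = ∑ l ∈ s, x l * b u (Pi.single l 1) := by
  classical
  induction s using Finset.induction_on with
  | empty => simp [b_zero_r b b_r]
  | insert a s ha ih =>
    rw [Finset.sum_insert ha, Finset.sum_insert ha, b_r, ih, b_smul_r b b_r]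

include hg b_l b_r in
theorem eval_quad (x : Fin d → ZMod 2) (s : Finset (Fin d)) :
    g (∑ j ∈ s, x j • Pi.single j 1) = ∑ j ∈ s, x j * g (Pi.single j 1) +
      ∑ j ∈ s, ∑ l ∈ s, if j < l then x j * x l * b (Pi.single j 1) (Pi.single l 1) else 0 := by
  classical
  induction s using Finset.induction_on with
  | empty => simp [g_zero g b hg b_r]
  | insert a s ha ih =>
    let T : Fin d → Fin d → ZMod 2 := fun j l =>
      if j < l then x j * x l * b (Pi.single j 1) (Pi.single l 1) else 0
    have hT : ∑ j ∈ insert a s, ∑ l ∈ insert a s, T j l =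
        ∑ l ∈ s, x a * (x l * b (Pi.single a 1) (Pi.single l 1)) + ∑ j ∈ s, ∑ l ∈ s, T j l := by
      rw [Finset.sum_insert ha, Finset.sum_insert ha]
      have e1 : ∀ j ∈ s, ∑ l ∈ insert a s, T j l = T j a + ∑ l ∈ s, T j l := by
        intro j _
        rw [Finset.sum_insert ha]
      rw [Finset.sum_congr rfl e1, Finset.sum_add_distrib]
      have e2 : T a a = 0 := by simp [T]
      rw [e2, zero_add, ← add_assoc, ← Finset.sum_add_distrib]
      congr 1
      apply Finset.sum_congr rfl
      intro l hl
      have hne : a ≠ l := fun e => ha (e ▸ hl)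
      show (if a < l then _ else _) + (if l < a then _ else _) = _
      rcases lt_or_gt_of_ne hne with h1 | h1
      · rw [if_pos h1, if_neg (not_lt.mpr h1.le), add_zero]
        ring
      · rw [if_neg (not_lt.mpr h1.le), if_pos h1, zero_add, b_symm g b hg (Pi.single l 1)]
        ring
    show _ = _ + ∑ j ∈ insert a s, ∑ l ∈ insert a s, T j l
    have e4 : (∑ l ∈ s, x l * b (x a • Pi.single a 1) (Pi.single l 1)) =
        ∑ l ∈ s, x a * (x l * b (Pi.single a 1) (Pi.single l 1)) := by
      apply Finset.sum_congr rfl
      intro l _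
      rw [b_smul_l b b_l]
      ring
    rw [hT, Finset.sum_insert ha, Finset.sum_insert ha, hg, ih, g_smul g b hg b_r, b_sum b b_r, e4]
    show _ + (_ + ∑ j ∈ s, ∑ l ∈ s, T j l) + _ = _
    ring

include hg b_l b_r in
theorem exists_poly : ∃ p : MvPolynomial (Fin d) (ZMod 2), p.totalDegree ≤ 2 ∧
    ∀ x, eval x p = g x := by
  classical
  refine ⟨∑ j, C (g (Pi.single j 1)) * X j + ∑ j, ∑ l,
    if j < l then C (b (Pi.single j 1) (Pi.single l 1)) * (X j * X l) else 0, ?_, ?_⟩
  · apply (totalDegree_add _ _).trans
    apply max_le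
    · apply (totalDegree_finsetSum _ _).trans
      apply Finset.sup_le
      intro j _
      apply (totalDegree_mul _ _).trans
      rw [totalDegree_C, totalDegree_X]
      norm_num
    · apply (totalDegree_finsetSum _ _).trans
      apply Finset.sup_le
      intro j _
      apply (totalDegree_finsetSum _ _).trans
      apply Finset.sup_le
      intro l _
      split_ifs
      · apply (totalDegree_mul _ _).trans
        rw [totalDegree_C, zero_add]
        apply (totalDegree_mul _ _).trans
        rw [totalDegree_X, totalDegree_X]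
      · rw [totalDegree_zero]
        norm_num
  · intro x
    have hx : x = ∑ j, x j • (Pi.single j 1 : Fin d → ZMod 2) := by
      funext i
      simp [Finset.sum_apply, Pi.single_apply]
    have e := eval_quad g b hg b_l b_r x Finset.univ
    rw [← hx] at e
    rw [e]
    simp only [map_add, map_sum, map_mul, eval_C, eval_X]
    congr 1
    · apply Finset.sum_congr rfl
      intro j _
      ring
    · apply Finset.sum_congr rfl
      intro j _
      apply Finset.sum_congr rfl
      intro l _
      split_ifs
      · simp only [map_mul, eval_C, eval_X]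
        ring
      · simp

end

theorem quad_bound {V W : Type*} [AddCommGroup V] [AddCommGroup W] [Module (ZMod 2) V]
    [Module (ZMod 2) W] [Finite V] [Finite W] (f : V → W) (β : V → V → W)
    (hf : ∀ x y, f (x + y) = f x + f y + β x y)
    (β_l : ∀ x x' y, β (x + x') y = β x y + β x' y)
    (β_r : ∀ x y y', β x (y + y') = β x y + β x y')
    (hz : ∀ v, f v = 0 → v = 0) :
    Module.finrank (ZMod 2) V ≤ 2 * Module.finrank (ZMod 2) W := by
  classical
  by_contra hlt
  push Not at hlt
  haveI : Module.Finite (ZMod 2) V := Module.Finite.of_finite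
  haveI : Module.Finite (ZMod 2) W := Module.Finite.of_finite
  set d := Module.finrank (ZMod 2) V
  set n := Module.finrank (ZMod 2) W
  let eV := (Module.finBasis (ZMod 2) V).equivFun
  let eW := (Module.finBasis (ZMod 2) W).equivFun
  let g : Fin n → (Fin d → ZMod 2) → ZMod 2 := fun i x => eW (f (eV.symm x)) i
  let b : Fin n → (Fin d → ZMod 2) → (Fin d → ZMod 2) → ZMod 2 :=
    fun i x y => eW (β (eV.symm x) (eV.symm y)) i
  have hp : ∀ i, ∃ p : MvPolynomial (Fin d) (ZMod 2), p.totalDegree ≤ 2 ∧
      ∀ x, eval x p = g i x := by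
    intro i
    apply exists_poly (g i) (b i)
    · intro x y
      show eW (f (eV.symm (x + y))) i = eW (f (eV.symm x)) i + eW (f (eV.symm y)) i +
        eW (β (eV.symm x) (eV.symm y)) i
      rw [map_add eV.symm, hf, map_add, map_add]
      rfl
    · intro x x' y
      show eW (β (eV.symm (x + x')) (eV.symm y)) i = eW (β (eV.symm x) (eV.symm y)) i +
        eW (β (eV.symm x') (eV.symm y)) i
      rw [map_add eV.symm, β_l, map_add]
      rfl
    · intro x y y'
      show eW (β (eV.symm x) (eV.symm (y + y'))) i = eW (β (eV.symm x) (eV.symm y)) i +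
        eW (β (eV.symm x) (eV.symm y')) i
      rw [map_add eV.symm, β_r, map_add]
      rfl
  choose p hpdeg hpeval using hp
  have hsum : (∑ i ∈ Finset.univ, (p i).totalDegree) < Fintype.card (Fin d) := by
    rw [Fintype.card_fin]
    have : (∑ i ∈ Finset.univ, (p i).totalDegree) ≤ Finset.univ.card • 2 :=
      Finset.sum_le_card_nsmul _ _ _ (fun i _ => hpdeg i)
    rw [Finset.card_univ, Fintype.card_fin, smul_eq_mul] at this
    omega
  have hCW := char_dvd_card_solutions_of_sum_lt (K := ZMod 2) 2 (s := Finset.univ) (f := p) hsum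
  have hf0 : f 0 = 0 := by
    have := hf 0 0
    have hβ : β 0 0 = 0 := by
      have := β_r 0 0 0
      rw [add_zero] at this
      exact left_eq_add.mp this
    rw [add_zero, hβ, add_zero] at this
    exact left_eq_add.mp this
  have key : ∀ {α : Type} (inst : Fintype α), (∃ a : α, ∀ y, y = a) →
      ¬ 2 ∣ @Fintype.card α inst := by
    intro α _ h1
    rw [Fintype.card_eq_one_iff.mpr h1]
    norm_num
  refine key _ ?_ hCW
  refine ⟨⟨0, ?_⟩, ?_⟩
  · intro i _
    refine (hpeval i 0).trans ?_
    show eW (f (eV.symm 0)) i = 0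
    rw [map_zero, hf0, map_zero]
    rfl
  · rintro ⟨x, hx⟩
    apply Subtype.ext
    have h1 : eW (f (eV.symm x)) = 0 := by
      funext i
      have := hx i (Finset.mem_univ _)
      exact (hpeval i x).symm.trans this
    have h2 : f (eV.symm x) = 0 := by
      simpa using h1
    have h3 := hz _ h2
    simpa using h3

/-- multiplicative form -/
theorem quad_bound_mul {V W : Type*} [CommGroup V] [CommGroup W] [Finite V] [Finite W]
    (hV : ∀ v : V, v * v = 1) (hW : ∀ w : W, w * w = 1) (f : V → W) (β : V → V → W)
    (hf : ∀ x y, f (x * y) = f x * f y * β x y)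
    (β_l : ∀ x x' y, β (x * x') y = β x y * β x' y)
    (β_r : ∀ x y y', β x (y * y') = β x y * β x y')
    (hz : ∀ v, f v = 1 → v = 1) :
    ∃ d n : ℕ, Nat.card V = 2 ^ d ∧ Nat.card W = 2 ^ n ∧ d ≤ 2 * n := by
  classical
  haveI := Fintype.ofFinite V
  haveI := Fintype.ofFinite W
  letI : Module (ZMod 2) (Additive V) := AddCommGroup.zmodModule (n := 2) (by
    intro x
    rw [two_nsmul]
    exact hV x.toMul)
  letI : Module (ZMod 2) (Additive W) := AddCommGroup.zmodModule (n := 2) (by
    intro x
    rw [two_nsmul]
    exact hW x.toMul)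
  have hb := quad_bound (V := Additive V) (W := Additive W)
    (fun x => Additive.ofMul (f x.toMul)) (fun x y => Additive.ofMul (β x.toMul y.toMul))
    (fun x y => hf x.toMul y.toMul) (fun x x' y => β_l x.toMul x'.toMul y.toMul)
    (fun x y y' => β_r x.toMul y.toMul y'.toMul) (fun v hv => hz v.toMul hv)
  refine ⟨_, _, ?_, ?_, hb⟩
  · have := Module.card_eq_pow_finrank (K := ZMod 2) (V := Additive V)
    rw [ZMod.card] at this
    rw [Nat.card_eq_fintype_card, ← this]
    exact Fintype.card_congr Additive.ofMul
  · have := Module.card_eq_pow_finrank (K := ZMod 2) (V := Additive W)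
    rw [ZMod.card] at this
    rw [Nat.card_eq_fintype_card, ← this]
    exact Fintype.card_congr Additive.ofMul

end Cfsg.Agent.Lib.SuzukiTwo.QuadBound
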