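import Mathlib
import Cfsg.Agent.Lib.SuzukiTwo.Higman
import Cfsg.Agent.Lib.SuzukiTwo.QuadBound

set_option autoImplicit false
set_option linter.style.haveILetI false

/-! Higman's theorem on Suzuki 2-groups: `|P| = q²` or `q³`, exponent 4. -/

namespace Cfsg.Agent.Lib.SuzukiTwo.HigmanMain

open Cfsg.Agent.Lib.SuzukiTwo.Basic Cfsg.Agent.Lib.SuzukiTwo.Central
open Cfsg.Agent.Lib.SuzukiTwo.Quot Cfsg.Agent.Lib.SuzukiTwo.Higman
open Cfsg.Agent.Lib.SuzukiTwo.QuadBound

variable {P : Type*} [Group P] {K : Subgroup (MulAut P)}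

theorem nat_div {n d : ℕ} (hn : 1 ≤ n) (hd0 : d ≠ 0) (hd : d ≤ 2 * n)
    (hdvd : 2 ^ n - 1 ∣ 2 ^ d - 1) : d = n ∨ d = 2 * n := by
  have h1 : ∀ m, 1 ≤ 2 ^ m := fun m => Nat.one_le_two_pow
  have hlt : ∀ {a b : ℕ}, a < b → 2 ^ a < 2 ^ b := fun h => Nat.pow_lt_pow_right (by norm_num) h
  by_contra hcon
  push Not at hcon
  obtain ⟨hne1, hne2⟩ := hcon
  rcases lt_or_gt_of_ne hne1 with h2 | h2
  · have h3 : 2 ^ d - 1 < 2 ^ n - 1 := by
      have := hlt h2
      have := h1 d
      omega
    have h4 : 0 < 2 ^ d - 1 := by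
      have : 2 ^ 0 < 2 ^ d := hlt (Nat.pos_of_ne_zero hd0)
      simp only [pow_zero] at this
      omega
    exact absurd (Nat.le_of_dvd h4 hdvd) (not_le_of_gt h3)
  · obtain ⟨e, rfl⟩ : ∃ e, d = n + e := ⟨d - n, by omega⟩
    have he : e < n := by omega
    have he0 : 0 < e := by omega
    have h5 : 2 ^ (n + e) - 1 = 2 ^ e * (2 ^ n - 1) + (2 ^ e - 1) := by
      have := h1 e
      have := h1 n
      rw [pow_add]
      zify [h1 n, h1 e, Nat.one_le_iff_ne_zero.mpr (by positivity : 2 ^ n * 2 ^ e ≠ 0)]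
      ring
    rw [h5] at hdvd
    have h6 : 2 ^ n - 1 ∣ 2 ^ e - 1 := (Nat.dvd_add_right (dvd_mul_left _ _)).mp hdvd
    have h7 : 2 ^ e - 1 < 2 ^ n - 1 := by
      have := hlt he
      have := h1 e
      omega
    have h8 : 0 < 2 ^ e - 1 := by
      have : 2 ^ 0 < 2 ^ e := hlt he0
      simp only [pow_zero] at this
      omega
    exact absurd (Nat.le_of_dvd h8 h6) (not_le_of_gt h7)

section

variable (h : Ctx K) (hnc : ∃ x y : P, x * y ≠ y * x)

include h hnc

theorem card_main : Nat.card P = Nat.card (Subgroup.center P) ^ 2 ∨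
    Nat.card P = Nat.card (Subgroup.center P) ^ 3 := by
  classical
  haveI := h.finite
  have hsq := sq_center h hnc
  have hZ : ∀ z ∈ Subgroup.center P, z * z = 1 := fun z hz => center_sq h hnc hz
  have hcen : ∀ {z : P}, z ∈ Subgroup.center P → ∀ g : P, g * z = z * g :=
    fun hz g => center_comm hz g
  -- commutators
  let cc : P → P → P := fun g l => g⁻¹ * l * g * l⁻¹
  have hcc : ∀ g l, cc g l ∈ Subgroup.center P := by
    intro g l
    have e : cc g l = ((g⁻¹ * l) * (g⁻¹ * l)) * (l⁻¹ * (g * g) * l⁻¹⁻¹) * (l⁻¹ * l⁻¹) := by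
      simp only [cc]
      group
    rw [e]
    refine Subgroup.mul_mem _ (Subgroup.mul_mem _ (hsq _) ?_) (hsq _)
    rw [hcen (hsq g), mul_inv_cancel_right]
    exact hsq g
  have cc_l : ∀ g g' l, cc (g * g') l = cc g l * cc g' l := by
    intro g g' l
    have e : cc (g * g') l = g'⁻¹ * (cc g l) * l * g' * l⁻¹ := by
      simp only [cc]
      group
    rw [e, hcen (hcc g l) g'⁻¹]
    simp only [cc]
    group
  have cc_r : ∀ g l l', cc g (l * l') = cc g l * cc g l' := by
    intro g l l'
    have e : cc g (l * l') = cc g l * (l * cc g l' * l⁻¹) := by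
      simp only [cc]
      group
    rw [e, hcen (hcc g l') l, mul_inv_cancel_right]
  have cc_zl : ∀ z ∈ Subgroup.center P, ∀ l, cc z l = 1 := by
    intro z hz l
    simp only [cc]
    rw [mul_assoc z⁻¹, hcen hz l]
    group
  have cc_zr : ∀ z ∈ Subgroup.center P, ∀ g, cc g z = 1 := by
    intro z hz g
    simp only [cc]
    rw [hcen hz g⁻¹]
    group
  have hQcomm : ∀ x y : P ⧸ Subgroup.center P, x * y = y * x := by
    intro x y
    obtain ⟨a, rfl⟩ := QuotientGroup.mk_surjective x
    obtain ⟨b, rfl⟩ := QuotientGroup.mk_surjective y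
    show ((a * b : P) : P ⧸ Subgroup.center P) = ((b * a : P) : P ⧸ Subgroup.center P)
    rw [QuotientGroup.eq]
    have e : (a * b)⁻¹ * (b * a) = cc b a⁻¹ := by
      simp only [cc]
      group
    rw [e]
    exact hcc _ _
  letI iV : CommGroup (P ⧸ Subgroup.center P) :=
    { (QuotientGroup.Quotient.group (Subgroup.center P)) with mul_comm := hQcomm }
  letI iZ : CommGroup (Subgroup.center P) :=
    { (inferInstance : Group (Subgroup.center P)) with
      mul_comm := fun a b => Subtype.ext ((Subgroup.mem_center_iff.mp b.2) _) }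
  let f : P ⧸ Subgroup.center P → Subgroup.center P := fun v =>
    ⟨Quotient.out v * Quotient.out v, hsq _⟩
  let β : P ⧸ Subgroup.center P → P ⧸ Subgroup.center P → Subgroup.center P := fun x y =>
    ⟨cc (Quotient.out x) (Quotient.out y), hcc _ _⟩
  have hf : ∀ g : P, ((f (g : P ⧸ Subgroup.center P) : Subgroup.center P) : P) = g * g := by
    intro g
    obtain ⟨c, hc⟩ := QuotientGroup.mk_out_eq_mul (Subgroup.center P) g
    show Quotient.out (g : P ⧸ Subgroup.center P) * Quotient.out (g : P ⧸ Subgroup.center P) = _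
    rw [hc]
    have h1 := hcen c.2 g
    calc g * c * (g * c) = g * (c * g) * c := by group
      _ = g * (g * c) * c := by rw [h1]
      _ = (g * g) * (c * c) := by group
      _ = g * g := by rw [hZ _ c.2, mul_one]
  have hβ : ∀ g l : P, ((β (g : P ⧸ Subgroup.center P) (l : P ⧸ Subgroup.center P) :
      Subgroup.center P) : P) = cc g l := by
    intro g l
    obtain ⟨c, hc⟩ := QuotientGroup.mk_out_eq_mul (Subgroup.center P) g
    obtain ⟨d, hd⟩ := QuotientGroup.mk_out_eq_mul (Subgroup.center P) l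
    show cc (Quotient.out (g : P ⧸ Subgroup.center P))
      (Quotient.out (l : P ⧸ Subgroup.center P)) = _
    rw [hc, hd, cc_l, cc_r, cc_r, cc_zr _ d.2, cc_zr _ d.2, cc_zl _ c.2, mul_one, one_mul, mul_one]
  obtain ⟨d, n, hdV, hnZ, hdn⟩ := quad_bound_mul (V := P ⧸ Subgroup.center P)
    (W := Subgroup.center P)
    (by
      intro v
      obtain ⟨g, rfl⟩ := QuotientGroup.mk_surjective v
      show ((g * g : P) : P ⧸ Subgroup.center P) = 1
      exact (QuotientGroup.eq_one_iff _).mpr (hsq g))
    (fun w => Subtype.ext (hZ w w.2)) f β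
    (by
      intro x y
      obtain ⟨a, rfl⟩ := QuotientGroup.mk_surjective x
      obtain ⟨b, rfl⟩ := QuotientGroup.mk_surjective y
      apply Subtype.ext
      show ((f ((a * b : P) : P ⧸ Subgroup.center P) : Subgroup.center P) : P) =
        ((f (a : P ⧸ Subgroup.center P) : Subgroup.center P) : P) *
          ((f (b : P ⧸ Subgroup.center P) : Subgroup.center P) : P) *
          ((β (a : P ⧸ Subgroup.center P) (b : P ⧸ Subgroup.center P) : Subgroup.center P) : P)
      rw [hf, hf, hf, hβ]
      calc a * b * (a * b) = (a * a) * cc a b * (b * b) := by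
            simp only [cc]
            group
        _ = (a * a) * (b * b) * cc a b := by
            rw [mul_assoc (a * a) (cc a b) (b * b), ← hcen (hcc a b) (b * b), ← mul_assoc])
    (by
      intro x x' y
      obtain ⟨a, rfl⟩ := QuotientGroup.mk_surjective x
      obtain ⟨b, rfl⟩ := QuotientGroup.mk_surjective x'
      obtain ⟨c, rfl⟩ := QuotientGroup.mk_surjective y
      apply Subtype.ext
      show ((β ((a * b : P) : P ⧸ Subgroup.center P) (c : P ⧸ Subgroup.center P) :
          Subgroup.center P) : P) =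
        ((β (a : P ⧸ Subgroup.center P) (c : P ⧸ Subgroup.center P) : Subgroup.center P) : P) *
        ((β (b : P ⧸ Subgroup.center P) (c : P ⧸ Subgroup.center P) : Subgroup.center P) : P)
      rw [hβ, hβ, hβ, cc_l])
    (by
      intro x y y'
      obtain ⟨a, rfl⟩ := QuotientGroup.mk_surjective x
      obtain ⟨b, rfl⟩ := QuotientGroup.mk_surjective y
      obtain ⟨c, rfl⟩ := QuotientGroup.mk_surjective y'
      apply Subtype.ext
      show ((β (a : P ⧸ Subgroup.center P) ((b * c : P) : P ⧸ Subgroup.center P) :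
          Subgroup.center P) : P) =
        ((β (a : P ⧸ Subgroup.center P) (b : P ⧸ Subgroup.center P) : Subgroup.center P) : P) *
        ((β (a : P ⧸ Subgroup.center P) (c : P ⧸ Subgroup.center P) : Subgroup.center P) : P)
      rw [hβ, hβ, hβ, cc_r])
    (by
      intro v hv
      obtain ⟨g, rfl⟩ := QuotientGroup.mk_surjective v
      have e := congrArg Subtype.val hv
      rw [hf] at e
      exact (QuotientGroup.eq_one_iff _).mpr (h.invol_center e))
  -- the action of `K` on the non-identity elements of the quotient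
  have hKcard := card_K_add h hZ trivial
  haveI := h.finite_K
  let X := {v : P ⧸ Subgroup.center P // v ≠ 1}
  have hne_of : ∀ (k : MulAut P) (v : P ⧸ Subgroup.center P), v ≠ 1 → actQ k v ≠ 1 := by
    intro k v hv e
    apply hv
    obtain ⟨p, rfl⟩ := QuotientGroup.mk_surjective v
    rw [actQ_mk] at e
    have h1 := (QuotientGroup.eq_one_iff _).mp e
    have h2 : k⁻¹ (k p) ∈ Subgroup.center P := Ctx.aut_center h1
    simp only [MulAut.inv_apply_self] at h2
    exact (QuotientGroup.eq_one_iff _).mpr h2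
  letI act : MulAction K X :=
    { smul := fun k v => ⟨actQ (k : MulAut P) v.1, hne_of _ _ v.2⟩
      one_smul := by
        intro v
        apply Subtype.ext
        exact actQ_one _
      mul_smul := by
        intro k l v
        apply Subtype.ext
        exact actQ_mul _ _ _ }
  have hstab : ∀ v : X, MulAction.stabilizer K v = ⊥ := by
    intro v
    rw [eq_bot_iff]
    intro k hk
    rw [Subgroup.mem_bot]
    have hk' : actQ (k : MulAut P) v.1 = v.1 := congrArg Subtype.val hk
    obtain ⟨p, hp⟩ := QuotientGroup.mk_surjective v.1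
    have hp' : p ∉ Subgroup.center P := by
      intro hz
      apply v.2
      rw [← hp]
      exact (QuotientGroup.eq_one_iff _).mpr hz
    rw [← hp] at hk'
    exact Subtype.ext (eq_one_of_fixQ h hZ k.2 hp' hk')
  have hdvd : Nat.card K ∣ Nat.card X := by
    have e := Nat.card_congr (MulAction.selfEquivOrbitsQuotientProd hstab)
    rw [Nat.card_prod] at e
    rw [e]
    exact dvd_mul_left _ _
  have hX : Nat.card X + 1 = Nat.card (P ⧸ Subgroup.center P) := by
    haveI := Fintype.ofFinite (P ⧸ Subgroup.center P)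
    rw [Nat.card_eq_fintype_card, Nat.card_eq_fintype_card, Fintype.card_subtype_compl]
    simp only [Fintype.card_unique]
    have : Fintype.card (P ⧸ Subgroup.center P) ≠ 0 := Fintype.card_ne_zero
    omega
  have hdvd2 : 2 ^ n - 1 ∣ 2 ^ d - 1 := by
    have e1 : Nat.card K = 2 ^ n - 1 := by omega
    have e2 : Nat.card X = 2 ^ d - 1 := by omega
    rwa [e1, e2] at hdvd
  have hn1 : 1 ≤ n := by
    by_contra hn0
    have hn0' : n = 0 := by omega
    rw [hn0', pow_zero] at hnZ
    obtain ⟨x, -, -, hx, hx2, -, -⟩ := h.two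
    haveI := (Nat.card_eq_one_iff_unique.mp hnZ).1
    have : (⟨x, h.invol_center hx2⟩ : Subgroup.center P) = 1 := Subsingleton.elim _ _
    exact hx (congrArg Subtype.val this)
  have hd0 : d ≠ 0 := by
    rintro rfl
    rw [pow_zero] at hdV
    haveI := (Nat.card_eq_one_iff_unique.mp hdV).1
    obtain ⟨x, y, hxy⟩ := hnc
    apply hxy
    have : ((x : P) : P ⧸ Subgroup.center P) = 1 := Subsingleton.elim _ _
    have hx := (QuotientGroup.eq_one_iff _).mp this
    exact (hcen hx y).symm
  have hP : Nat.card P = 2 ^ d * 2 ^ n := by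
    rw [Subgroup.card_eq_card_quotient_mul_card_subgroup (Subgroup.center P), hdV, hnZ]
  rw [hnZ, hP]
  rcases nat_div hn1 hd0 hdn hdvd2 with rfl | rfl
  · left
    rw [← pow_mul, ← pow_add]
    congr 1
    ring
  · right
    rw [← pow_mul, ← pow_add]
    congr 1
    ring

theorem exponent_main : Monoid.exponent P = 4 := by
  haveI := h.finite
  have hsq := sq_center h hnc
  have hZ : ∀ z ∈ Subgroup.center P, z * z = 1 := fun z hz => center_sq h hnc hz
  have h4 : ∀ x : P, x ^ 4 = 1 := by
    intro x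
    have : x ^ 4 = (x * x) * (x * x) := by
      simp only [pow_succ, pow_zero, one_mul, mul_assoc]
    rw [this]
    exact hZ _ (hsq x)
  have hdvd : Monoid.exponent P ∣ 2 ^ 2 := Monoid.exponent_dvd_of_forall_pow_eq_one h4
  obtain ⟨k, hk, e⟩ := (Nat.dvd_prime_pow Nat.prime_two).mp hdvd
  have hk2 : k = 2 := by
    by_contra hne
    have hk1 : k ≤ 1 := by omega
    have h2 : ∀ x : P, x * x = 1 := by
      intro x
      have e1 := Monoid.pow_exponent_eq_one x
      rw [e] at e1
      have e2 : x ^ 2 = 1 := by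
        have hd : 2 ^ k ∣ 2 := by
          calc 2 ^ k ∣ 2 ^ 1 := pow_dvd_pow 2 hk1
            _ = 2 := rfl
        obtain ⟨c, hc⟩ := hd
        rw [hc, pow_mul, e1, one_pow]
      rwa [pow_two] at e2
    obtain ⟨x, y, hxy⟩ := hnc
    apply hxy
    have e1 := h2 (x * y)
    have e2 := h2 x
    have e3 := h2 y
    calc x * y = x * (x * y * (x * y)) * y := by rw [e1]; simp
      _ = (x * x) * y * x * (y * y) := by group
      _ = y * x := by rw [e2, e3]; simp
  rw [e, hk2]
  rfl

end

theorem main (hP : Cfsg.IsSuzukiTwoGroup P) :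
    (∀ x : P, x * x ∈ Subgroup.center P) ∧ (∀ x y : P, x⁻¹ * y⁻¹ * x * y ∈ Subgroup.center P) ∧
      (Nat.card P = Nat.card (Subgroup.center P) ^ 2 ∨
        Nat.card P = Nat.card (Subgroup.center P) ^ 3) ∧
      Monoid.exponent P = 4 := by
  obtain ⟨K, h⟩ := exists_ctx hP
  have hnc : ∃ x y : P, x * y ≠ y * x := hP.2.2.1
  have hsq := sq_center h hnc
  refine ⟨hsq, ?_, card_main h hnc, exponent_main h hnc⟩
  intro x y
  have e : x⁻¹ * y⁻¹ * x * y = ((x⁻¹ * y⁻¹) * (x⁻¹ * y⁻¹)) * (y * (x * x) * y⁻¹) * (y * y) := by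
    group
  rw [e]
  refine Subgroup.mul_mem _ (Subgroup.mul_mem _ (hsq _) ?_) (hsq _)
  rw [center_comm (hsq x) y, mul_inv_cancel_right]
  exact hsq x

end Cfsg.Agent.Lib.SuzukiTwo.HigmanMain
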